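import Cfsg.Agent.H453.OddM.Asm
import Cfsg.Agent.S0811
import Cfsg.Agent.S0243
import Cfsg.Agent.H390.PslSpec
import Mathlib.GroupTheory.SpecificGroups.Dihedral
import Mathlib.FieldTheory.Finite.Basic

/-!
# S4785, the groups `PSL_2(q)`, `q` odd (helper746, TEAM ODDM)

* `RO8.eq_top_of_lt_eight` : index less than 8;
* `isReal_pr` : semisimple elements are real;
* `row_psl_two` : the row.
-/

set_option autoImplicit false

open Cfsg

namespace Cfsg.Agent.H746.OddM

open Cfsg.Agent.H453.OddM Cfsg.Agent.H390.PslSpec Subgroup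

universe u

/-- index less than 8 -/
theorem eq_top_of_lt_eight {T : Type u} [Group T] [Finite T] [IsSimpleGroup T] (h2 : 2 ∣ Nat.card T) {R : Subgroup T}
    (h : RO8 T R) (h8 : R.index < 8) : R = ⊤ := by
  have hfin : Finite (T ⧸ R) := inferInstance
  obtain ⟨t, ht⟩ := exists_prime_orderOf_dvd_card' 2 h2
  have ht2 : t ^ 2 = 1 := by rw [← ht, pow_orderOf_eq_one]
  have h1 := h.mod_eight t ht2
  have h3 : Nat.card {ω : T ⧸ R // t • ω = ω} ≤ R.index :=
    Nat.card_le_card_of_injective (Subtype.val : {ω : T ⧸ R // t • ω = ω} → T ⧸ R) Subtype.val_injective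
  have h4 : Nat.card {ω : T ⧸ R // t • ω = ω} = R.index := by
    have h5 : Nat.card {ω : T ⧸ R // t • ω = ω} % 8 = R.index % 8 := h1
    omega
  have h5 : Function.Bijective (Subtype.val : {ω : T ⧸ R // t • ω = ω} → T ⧸ R) :=
    (Nat.bijective_iff_injective_and_card _).2 ⟨Subtype.val_injective, h4⟩
  have h6 : t ∈ R.normalCore := by
    intro g
    obtain ⟨⟨ω, hω⟩, h7⟩ := h5.2 (QuotientGroup.mk g⁻¹ : T ⧸ R)
    have h8 : ω = QuotientGroup.mk g⁻¹ := h7
    rw [h8] at hω
    have h9 := fixed_iff.1 hω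
    rwa [inv_inv] at h9
  rcases (inferInstance : R.normalCore.Normal).eq_bot_or_eq_top with h7 | h7
  · rw [h7, mem_bot] at h6
    rw [h6, orderOf_one] at ht
    exact absurd ht (by decide)
  · rw [eq_top_iff, ← h7]
    exact normalCore_le R

theorem realP_of_dihedral {T : Type u} [Group T] {H : Subgroup T} {n : ℕ} (e : H ≃* DihedralGroup n) :
    RealP T n := by
  refine ⟨(e.symm (DihedralGroup.r 1) : H), ?_, ((e.symm (DihedralGroup.sr 0) : H) : T), ?_⟩
  · rw [Subgroup.orderOf_coe, MulEquiv.orderOf_eq, DihedralGroup.orderOf_r_one]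
  · have h : e.symm (DihedralGroup.sr 0) * e.symm (DihedralGroup.r 1) * (e.symm (DihedralGroup.sr 0))⁻¹ =
        (e.symm (DihedralGroup.r 1))⁻¹ := by
      rw [← map_inv, ← map_inv, ← map_mul, ← map_mul]
      congr 1
      simp
    exact congrArg Subtype.val h

section

variable {F : Type*} [Field F]

local notation "SL2" => Matrix.SpecialLinearGroup (Fin 2) F
local notation "PSL2" => Matrix.ProjectiveSpecialLinearGroup (Fin 2) F

open Polynomial in
/-- the equation for the inverting element -/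
theorem exists_sol [Fintype F] (hq : Fintype.card F % 2 = 1) (h2 : (2 : F) ≠ 0) {t : F} (ht : t ^ 2 ≠ 4) :
    ∃ x z : F, x * x + t * x * z + z * z = -1 := by
  obtain ⟨s, rfl⟩ : ∃ s : F, t = 2 * s := ⟨t / 2, by field_simp⟩
  have hk : (1 - s ^ 2 : F) ≠ 0 := by
    intro h
    apply ht
    linear_combination -4 * h
  obtain ⟨a, b, hab⟩ := FiniteField.exists_root_sum_quadratic (R := F) (f := X ^ 2) (g := C (1 - s ^ 2) * X ^ 2 + 1)
    (by rw [degree_X_pow]; rfl) (by
      have h1 : (C (1 - s ^ 2) * X ^ 2 + 1 : F[X]) = C (1 - s ^ 2) * X ^ 2 + C 0 * X + C 1 := by simp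
      rw [h1]; exact degree_quadratic hk) hq
  refine ⟨a - s * b, b, ?_⟩
  simp only [eval_add, eval_pow, eval_X, eval_mul, eval_C, eval_one] at hab
  linear_combination hab

/-- regular semisimple elements in companion form are real -/
theorem isReal_comp [Fintype F] (hq : Fintype.card F % 2 = 1) (h2 : (2 : F) ≠ 0) {t : F} (ht : t ^ 2 ≠ 4) :
    IsReal (pr F (comp t)) := by
  obtain ⟨x, z, h⟩ := exists_sol hq h2 ht
  let S : SL2 := ⟨!![x, z + x * t; z, -x], by rw [Matrix.det_fin_two_of]; linear_combination -h⟩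
  refine ⟨pr F S, ?_⟩
  rw [← map_inv, ← map_inv, ← map_mul, ← map_mul]
  congr 1
  rw [mul_inv_eq_iff_eq_mul, eq_inv_mul_iff_mul_eq]
  apply Subtype.ext
  rw [Matrix.SpecialLinearGroup.coe_mul, Matrix.SpecialLinearGroup.coe_mul]
  change !![0, -1; 1, t] * (!![x, z + x * t; z, -x] * !![0, -1; 1, t]) = !![x, z + x * t; z, -x]
  rw [Matrix.mul_fin_two, Matrix.mul_fin_two]
  congr 1
  ext i j
  fin_cases i <;> fin_cases j <;> simp <;> ring

end

section

variable {F : Type*} [Field F] [Fintype F] {p : ℕ} [hp : Fact p.Prime] [hcp : CharP F p]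

local notation "SL2" => Matrix.SpecialLinearGroup (Fin 2) F
local notation "PSL2" => Matrix.ProjectiveSpecialLinearGroup (Fin 2) F

omit [Fintype F] in
/-- the trace is not `±2` -/
theorem trace_ne {K : Type*} [Field K] [Algebra F K] {u : K} (h : 2 < orderOf u) {t : F}
    (ht : algebraMap F K t = u + u⁻¹) : t ^ 2 ≠ 4 := by
  intro h4
  have hu : u ≠ 0 := ne_zero_of_orderOf h
  have h1 : (u + u⁻¹) ^ 2 = 4 := by
    rw [← ht, ← map_pow, h4]; exact map_ofNat _ 4
  have huu : u * u⁻¹ = 1 := mul_inv_cancel₀ hu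
  have h2 : (u - u⁻¹) ^ 2 = 0 := by linear_combination h1 - 4 * huu
  exact inv_ne_of_orderOf h (sub_eq_zero.1 ((pow_eq_zero_iff two_ne_zero).1 h2))

include hp hcp in
theorem realP_sub (hq : 4 ≤ Fintype.card F) (hodd : Fintype.card F % 2 = 1) (h2 : (2 : F) ≠ 0) :
    RealP PSL2 ((Fintype.card F - 1) / 2) := by
  classical
  obtain ⟨g, hg⟩ := IsCyclic.exists_generator (α := Fˣ)
  have hord : orderOf (g : F) = Fintype.card F - 1 := by
    rw [orderOf_units, orderOf_eq_card_of_forall_mem_zpowers hg, Nat.card_eq_fintype_card, Fintype.card_units]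
  set u := algebraMap F (AlgebraicClosure F) (g : F)
  have hu : orderOf u = Fintype.card F - 1 := by
    rw [← hord]
    exact orderOf_injective (algebraMap F (AlgebraicClosure F) : F →* AlgebraicClosure F) (algebraMap F (AlgebraicClosure F)).injective _
  have ht : algebraMap F (AlgebraicClosure F) ((g : F) + (g : F)⁻¹) = u + u⁻¹ := by simp [u]
  have h3 := exists_of_root (p := p) u (ne_zero_of_orderOf (by omega)) ((g : F) + (g : F)⁻¹) ht
    (inv_ne_of_orderOf (by omega)) (dd_dvd_sub _) hu
  rw [dd_odd (Nat.odd_iff.2 hodd)] at h3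
  exact ⟨_, h3, isReal_comp hodd h2 (trace_ne (by omega) ht)⟩

include hp hcp in
theorem realP_add (hq : 4 ≤ Fintype.card F) (hodd : Fintype.card F % 2 = 1) (h2 : (2 : F) ≠ 0) :
    RealP PSL2 ((Fintype.card F + 1) / 2) := by
  set q := Fintype.card F with hqdef
  have hq1 : 1 ≤ q := by omega
  have : CharP (AlgebraicClosure F) p := charP_of_injective_algebraMap (algebraMap F (AlgebraicClosure F)).injective p
  obtain ⟨k, hk, hc⟩ := FiniteField.card F p
  have hne : NeZero ((q + 1 : ℕ) : AlgebraicClosure F) := by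
    constructor
    rw [Ne, CharP.cast_eq_zero_iff (AlgebraicClosure F) p]
    intro h
    have h2 : p ∣ q := by rw [hqdef, hc]; exact dvd_pow_self _ k.2.ne'
    have := (Nat.dvd_add_right h2).1 h
    exact hp.out.one_lt.ne' (Nat.dvd_one.1 this)
  obtain ⟨u, hu⟩ := HasEnoughRootsOfUnity.exists_primitiveRoot (AlgebraicClosure F) (q + 1)
  have hord : orderOf u = q + 1 := hu.eq_orderOf.symm
  have hu0 : u ≠ 0 := ne_zero_of_orderOf (by omega)
  have huq : u ^ q = u⁻¹ := by
    have : u ^ q * u = 1 := by rw [← pow_succ, ← hord, pow_orderOf_eq_one]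
    exact eq_inv_of_mul_eq_one_left this
  -- trace in F
  have hfix : (u + u⁻¹) ^ q = u + u⁻¹ := by
    have : (u + u⁻¹) ^ q = u ^ q + (u⁻¹) ^ q := by
      rw [hqdef, hc]
      exact add_pow_char_pow (R := AlgebraicClosure F) u u⁻¹ p k
    rw [this, inv_pow, huq, inv_inv, add_comm]
  obtain ⟨t, ht⟩ : ∃ t : F, algebraMap F (AlgebraicClosure F) t = u + u⁻¹ :=
    mem_range_of_pow_card _ hfix
  have h3 := exists_of_root (p := p) u hu0 t ht (inv_ne_of_orderOf (by omega)) (dd_dvd_add hq1) hord
  rw [← hqdef, dd_odd (Nat.odd_iff.2 hodd)] at h3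
  exact ⟨_, h3, isReal_comp hodd h2 (trace_ne (by omega) ht)⟩

omit [Fintype F] in
include hp hcp in
/-- transvections are real if `-1` is a square -/
theorem realP_char (h2 : IsSquare (-1 : F)) : RealP PSL2 p := by
  refine ⟨pr F (trv F), ?_, ?_⟩
  · apply orderOf_eq_prime
    · rw [pr_pow_eq_one_iff]
      left
      have : ∀ n : ℕ, (!![1, 1; 0, 1] : Matrix (Fin 2) (Fin 2) F) ^ n = !![1, (n : F); 0, 1] := by
        intro n
        induction n with
        | zero => simp [Matrix.one_fin_two]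
        | succ n ih =>
          rw [pow_succ, ih]
          ext i j
          fin_cases i <;> fin_cases j <;> simp [Matrix.mul_apply, Fin.sum_univ_two, add_comm]
      show (!![1, 1; 0, 1] : Matrix (Fin 2) (Fin 2) F) ^ p = 1
      rw [this, CharP.cast_eq_zero]
      simp [Matrix.one_fin_two]
    · rw [Ne, pr_eq_one_iff]
      rintro (h | h)
      · have := congrFun (congrFun h 0) 1
        simp [trv] at this
      · have := congrFun (congrFun h 0) 1
        simp [trv] at this
  · obtain ⟨i, hi⟩ := h2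
    let S : SL2 := ⟨!![i, 0; 0, -i], by rw [Matrix.det_fin_two_of]; linear_combination hi⟩
    refine ⟨pr F S, ?_⟩
    rw [← map_inv, ← map_inv, ← map_mul, ← map_mul]
    congr 1
    rw [mul_inv_eq_iff_eq_mul, eq_inv_mul_iff_mul_eq]
    apply Subtype.ext
    rw [Matrix.SpecialLinearGroup.coe_mul, Matrix.SpecialLinearGroup.coe_mul]
    change !![1, 1; 0, 1] * (!![i, 0; 0, -i] * !![1, 1; 0, 1]) = !![i, 0; 0, -i]
    rw [Matrix.mul_fin_two, Matrix.mul_fin_two]
    congr 1
    ext i j
    fin_cases i <;> fin_cases j <;> simp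

end

/-- the row over a given field -/
theorem row_of_field {F : Type} [Field F] [Fintype F] [IsSimpleGroup (Matrix.ProjectiveSpecialLinearGroup (Fin 2) F)]
    (hq4 : 4 ≤ Fintype.card F) (hodd : ¬ 2 ∣ Fintype.card F)
    (hcard : 2 * Nat.card (Matrix.ProjectiveSpecialLinearGroup (Fin 2) F) =
      Fintype.card F * (Fintype.card F ^ 2 - 1)) :
    Row8 (Matrix.ProjectiveSpecialLinearGroup (Fin 2) F) := by
  classical
  intro R hR
  by_contra hne
  obtain ⟨p, hcp⟩ := CharP.exists F
  have := hcp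
  have hp : Fact p.Prime := ⟨CharP.char_is_prime F p⟩
  have hfin : Finite (Matrix.ProjectiveSpecialLinearGroup (Fin 2) F) := inferInstance
  have h2 : (2 : F) ≠ 0 := by
    intro h
    have h1 : p ∣ 2 := (CharP.cast_eq_zero_iff F p 2).1 (by exact_mod_cast h)
    have h2 : p = 2 := (Nat.prime_dvd_prime_iff_eq hp.out Nat.prime_two).1 h1
    obtain ⟨n, -, hn⟩ := FiniteField.card F p
    rw [hn, h2] at hodd
    exact hodd (dvd_pow_self _ n.2.ne')
  have hs := realP_sub (p := p) hq4 (by omega) h2
  have ha := realP_add (p := p) hq4 (by omega) h2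
  have hs' := hR.cov.dvd hs
  have ha' := hR.cov.dvd ha
  -- `q = 2 m + 1`
  obtain ⟨m, hm⟩ : ∃ m, Fintype.card F = 2 * m + 1 := ⟨Fintype.card F / 2, by omega⟩
  have e1 : (Fintype.card F - 1) / 2 = m := by omega
  have e2 : (Fintype.card F + 1) / 2 = m + 1 := by omega
  rw [e1] at hs hs'
  rw [e2] at ha ha'
  have hc : Nat.Coprime m (m + 1) := by simp
  obtain ⟨k, hk⟩ := hc.mul_dvd_of_dvd_of_dvd hs' ha'
  have hci := R.card_mul_index
  have hcard2 : Nat.card (Matrix.ProjectiveSpecialLinearGroup (Fin 2) F) = (2 * m + 1) * (2 * (m * (m + 1))) := by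
    have h3 : Fintype.card F ^ 2 - 1 = 2 * (2 * (m * (m + 1))) := by
      rw [hm]
      have : (2 * m + 1) ^ 2 = 2 * (2 * (m * (m + 1))) + 1 := by ring
      omega
    rw [h3, hm] at hcard
    have h4 : (2 * m + 1) * (2 * (2 * (m * (m + 1)))) = 2 * ((2 * m + 1) * (2 * (m * (m + 1)))) := by ring
    rw [h4] at hcard
    exact Nat.eq_of_mul_eq_mul_left two_pos hcard
  have hm0 : 0 < m := by omega
  have hidx : R.index ∣ Fintype.card F := by
    have h3 : m * (m + 1) * (k * R.index) = m * (m + 1) * ((2 * m + 1) * 2) := by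
      rw [← mul_assoc, ← hk, hci, hcard2]; ring
    have h4 : k * R.index = (2 * m + 1) * 2 := Nat.eq_of_mul_eq_mul_left (by positivity) h3
    have h5 : R.index ∣ (2 * m + 1) * 2 := ⟨k, by rw [← h4, mul_comm]⟩
    rw [hm]
    exact (Nat.Coprime.symm (Nat.coprime_two_left.2 hR.odd_index)).dvd_of_dvd_mul_right h5
  have heven : 2 ∣ Nat.card (Matrix.ProjectiveSpecialLinearGroup (Fin 2) F) := by
    rw [hcard2]; exact ⟨(2 * m + 1) * (m * (m + 1)), by ring⟩
  by_cases h8 : R.index < 8
  · exact hne (eq_top_of_lt_eight heven hR h8)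
  have hle : R.index ≤ Fintype.card F := Nat.le_of_dvd (by omega) hidx
  by_cases h9 : Fintype.card F = 9
  · -- `q = 9`
    have hp3 : p = 3 := by
      obtain ⟨n, -, hn⟩ := FiniteField.card F p
      rw [h9] at hn
      have h3 : p ∣ 3 ^ 2 := by
        have : (3 : ℕ) ^ 2 = 9 := by norm_num
        rw [this, hn]; exact dvd_pow_self _ n.2.ne'
      exact (Nat.prime_dvd_prime_iff_eq hp.out Nat.prime_three).1 (hp.out.dvd_of_dvd_pow h3)
    have h3 : RealP (Matrix.ProjectiveSpecialLinearGroup (Fin 2) F) p :=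
      realP_char (FiniteField.isSquare_neg_one_iff.2 (by rw [h9]; decide))
    have h4 := hR.cov.dvd h3
    rw [hp3] at h4
    have h5 : m = 4 := by omega
    have h6 : R.index = 9 := by
      obtain ⟨j, hj⟩ := hR.odd_index
      omega
    rw [h6, hcard2, h5] at hci
    omega
  · -- general case
    have h7 : Fintype.card F ≠ 7 := by omega
    obtain ⟨H, hH, ⟨e⟩⟩ := S0811.result (F := F) rfl (by
      simp only [Finset.mem_insert, Finset.mem_singleton]
      omega)
    have hg2 : Nat.gcd 2 (Fintype.card F - 1) = 2 := Nat.gcd_eq_left (by omega)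
    rw [hg2, e2] at e
    -- the real element and the involution
    let x : Matrix.ProjectiveSpecialLinearGroup (Fin 2) F := (e.symm (DihedralGroup.r 1) : H)
    let s : Matrix.ProjectiveSpecialLinearGroup (Fin 2) F := (e.symm (DihedralGroup.sr 0) : H)
    have hxs : s * x * s⁻¹ = x⁻¹ := by
      have h : e.symm (DihedralGroup.sr 0) * e.symm (DihedralGroup.r 1) * (e.symm (DihedralGroup.sr 0))⁻¹ =
          (e.symm (DihedralGroup.r 1))⁻¹ := by
        rw [← map_inv, ← map_inv, ← map_mul, ← map_mul]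
        congr 1
        simp
      exact congrArg Subtype.val h
    have hs2 : s ^ 2 = 1 := by
      have h : e.symm (DihedralGroup.sr 0) ^ 2 = 1 := by
        rw [← map_pow, sq]
        simp
      exact congrArg Subtype.val h
    obtain ⟨g, hg1, hg2⟩ := hR.toRO.exists_conj_two (x := x) ⟨s, hxs⟩ (Q := Subgroup.zpowers s) (by
      rw [IsPGroup.iff_card]
      have h1 : orderOf s ∣ 2 := orderOf_dvd_of_pow_eq_one hs2
      rw [Nat.card_zpowers]
      rcases (Nat.dvd_prime Nat.prime_two).1 h1 with h | h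
      · exact ⟨0, by rw [h, pow_zero]⟩
      · exact ⟨1, by rw [h, pow_one]⟩) (by
      intro q hq
      have h1 : Subgroup.zpowers s ≤ Subgroup.normalizer (Subgroup.zpowers x : Set _) := by
        rw [Subgroup.zpowers_le, Subgroup.mem_normalizer_iff]
        intro y
        have hmap : (Subgroup.zpowers x).map (MulAut.conj s).toMonoidHom = Subgroup.zpowers x := by
          rw [MonoidHom.map_zpowers]
          change Subgroup.zpowers (s * x * s⁻¹) = _
          rw [hxs, Subgroup.zpowers_inv]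
        constructor
        · intro hy
          have : s * y * s⁻¹ ∈ (Subgroup.zpowers x).map (MulAut.conj s).toMonoidHom := ⟨y, hy, rfl⟩
          rwa [hmap] at this
        · intro hy
          change s * y * s⁻¹ ∈ Subgroup.zpowers x at hy
          rw [← hmap] at hy
          obtain ⟨z, hz, hzy⟩ := hy
          have h3 : s * z * s⁻¹ = s * y * s⁻¹ := hzy
          have h4 : z = y := by
            have := (MulAut.conj s).injective (a₁ := z) (a₂ := y) h3
            exact this
          rwa [← h4]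
      have h2 := h1 hq
      exact (Subgroup.mem_normalizer_iff.1 h2 x).1 (Subgroup.mem_zpowers x))
    -- `H^g ≤ R`
    have hsub : H.map (MulAut.conj g).toMonoidHom ≤ R := by
      rintro _ ⟨h, hh, rfl⟩
      change g * h * g⁻¹ ∈ R
      have hx1 : ∀ k : ℤ, g * x ^ k * g⁻¹ ∈ R := by
        intro k
        have e : g * x ^ k * g⁻¹ = (g * x * g⁻¹) ^ k := (map_zpow (MulAut.conj g).toMonoidHom x k)
        rw [e]; exact R.zpow_mem hg1 k
      have hx2 : ∀ k : ZMod (m + 1), ∃ j : ℤ, ((e.symm (DihedralGroup.r k) : H) : _) = x ^ j := by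
        intro k
        refine ⟨(k.val : ℤ), ?_⟩
        have h3 : DihedralGroup.r k = (DihedralGroup.r 1 : DihedralGroup (m + 1)) ^ k.val := by
          rw [DihedralGroup.r_one_pow, ZMod.natCast_zmod_val]
        rw [h3, map_pow, zpow_natCast]
        rfl
      obtain ⟨d, hd⟩ : ∃ d, e ⟨h, hh⟩ = d := ⟨_, rfl⟩
      have hd' : h = ((e.symm d : H) : _) := by rw [← hd, MulEquiv.symm_apply_apply]
      cases d with
      | r k =>
        obtain ⟨j, hj⟩ := hx2 k
        rw [hd', hj]
        exact hx1 j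
      | sr k =>
        obtain ⟨j, hj⟩ := hx2 k
        have h3 : (DihedralGroup.sr k : DihedralGroup (m + 1)) = DihedralGroup.sr 0 * DihedralGroup.r k := by
          simp
        have h4 : h = s * x ^ j := by
          rw [hd', h3, map_mul, Subgroup.coe_mul, hj]
        rw [h4]
        have h5 : g * (s * x ^ j) * g⁻¹ = (g * s * g⁻¹) * (g * x ^ j * g⁻¹) := by group
        rw [h5]
        exact R.mul_mem (hg2 s (Subgroup.mem_zpowers s)) (hx1 j)
    have hcoat : IsCoatom (H.map (MulAut.conj g).toMonoidHom) := by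
      have h3 := ((MulAut.conj g).mapSubgroup.isCoatom_iff H).2 hH
      exact h3
    have hReq : R = H.map (MulAut.conj g).toMonoidHom := by
      rcases lt_or_eq_of_le hsub with h3 | h3
      · exact absurd (hcoat.2 R h3) hne
      · exact h3.symm
    have hRcard : Nat.card R = 2 * (m + 1) := by
      rw [hReq, Subgroup.card_map_of_injective (MulAut.conj g).injective, Nat.card_congr e.toEquiv,
        DihedralGroup.nat_card]
    have h3 : m ∣ 2 := by
      rw [hRcard] at hs'
      exact hc.dvd_of_dvd_mul_right hs'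
    have h4 := Nat.le_of_dvd two_pos h3
    omega

/-- **C10a** -/
theorem row_psl_two (q : ℕ) (hq : ¬ 2 ∣ q) : RowN.{u} (.psl 2 q) := by
  intro T _ _ _ hT
  obtain ⟨F, _, _, hF, ⟨e⟩⟩ := hT.real
  obtain ⟨-, h4, -⟩ := hT.cond
  have : IsSimpleGroup (Matrix.ProjectiveSpecialLinearGroup (Fin 2) F) :=
    IsSimpleGroup.isSimpleGroup_of_surjective e.toMonoidHom e.surjective
  refine Row8.congr e.symm (row_of_field (by rw [hF]; exact h4 rfl) (by rwa [hF]) ?_)
  have h1 := S0243.result (F := F) rfl 2 le_rfl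
  rw [Fin.prod_univ_two] at h1
  have h5 := h4 rfl
  rw [Nat.gcd_eq_left (by omega)] at h1
  simp only [Fin.val_zero, Fin.val_one, pow_zero, pow_one] at h1
  have h6 : Fintype.card F ^ 2 - Fintype.card F = (Fintype.card F - 1) * Fintype.card F := by
    rw [sq, Nat.sub_one_mul]
  rw [h6] at h1
  have h7 : 0 < Fintype.card F - 1 := by omega
  refine Nat.eq_of_mul_eq_mul_left h7 ?_
  rw [show (Fintype.card F - 1) * (2 * Nat.card (Matrix.ProjectiveSpecialLinearGroup (Fin 2) F)) =
    2 * ((Fintype.card F - 1) * Nat.card (Matrix.ProjectiveSpecialLinearGroup (Fin 2) F)) by ring, h1]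
  ring

end Cfsg.Agent.H746.OddM
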