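import Cfsg.Agent.H746.OddM.ThreeLEl
import Cfsg.Agent.H453.OddM.Asm
import Cfsg.Agent.H304.ExtInv
import Cfsg.Agent.H304.Psl3
import Cfsg.Agent.H907.MxSymp2

/-!
# S4785, the groups `PSL_3(q)`, `q` odd: the maximal subgroups (helper746, TEAM ODDM)
-/

set_option autoImplicit false

namespace Cfsg.Agent.H746.OddM.ThreeL

open Cfsg Cfsg.Geo Matrix Cfsg.Agent.H746.OddM.Three Cfsg.Agent.H453.OddM
open Cfsg.Agent.H304.PslT
open scoped MatrixGroups

variable {F : Type*} [Field F]

local notation "V3" => Fin 3 → F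
local notation "M3" => Matrix (Fin 3) (Fin 3) F
local notation "SL3" => Matrix.SpecialLinearGroup (Fin 3) F
local notation "PSL3" => Matrix.ProjectiveSpecialLinearGroup (Fin 3) F

/-- the real classes meet `M` -/
theorem lift {M : Subgroup PSL3} (hM : Cov PSL3 M) {X : SL3} (hX : IsReal X) :
    ∃ Y : SL3, pr 3 F (Y * X * Y⁻¹) ∈ M := by
  obtain ⟨g, hg⟩ := hM.2 _ (hX.map (pr 3 F))
  obtain ⟨Y, rfl⟩ := QuotientGroup.mk'_surjective _ g
  refine ⟨Y, ?_⟩
  rw [map_mul, map_mul, map_inv]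
  exact hg

theorem mem_pre {M : Subgroup PSL3} {X : SL3} (h : pr 3 F X ∈ M) :
    Matrix.SpecialLinearGroup.toGL X ∈ pre M := ⟨X, h, rfl⟩

theorem coe_conj (X Y : SL3) : ((Matrix.SpecialLinearGroup.toGL (Y * X * Y⁻¹) : GL (Fin 3) F) : M3) =
    ((Matrix.SpecialLinearGroup.toGL Y : GL (Fin 3) F) : M3) * (X : M3) *
      (((Matrix.SpecialLinearGroup.toGL Y)⁻¹ : GL (Fin 3) F) : M3) := by
  rw [map_mul, map_mul, map_inv, Units.val_mul, Units.val_mul]
  rfl

variable [Fintype F]

/-- **subfields** -/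
theorem case_subfield (_hq : 3 ≤ Fintype.card F) {lam : Fˣ} (hlam : orderOf lam = Fintype.card F - 1)
    (h2 : (2 : F) ≠ 0)
    {A : GL (Fin 3) F} (hA : IsEg (lam : F) (A : M3)) {F₀ : Subfield F} {r : ℕ} (hr : 2 ≤ r)
    (hc : Fintype.card F = Nat.card F₀ ^ r) {P : GL (Fin 3) F} : A ∉ subfieldSubgroup F₀ P := by
  classical
  intro hmem
  have hQ2 : 2 ≤ Nat.card F₀ := Finite.one_lt_card
  have hFt : Fintype F₀ := Fintype.ofFinite F₀
  have hodd : Nat.card F₀ ≠ 2 := by
    intro h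
    apply h2
    have h3 : ((Fintype.card F₀ : ℕ) : F₀) = 0 := by
      obtain ⟨p, hcp⟩ := CharP.exists F₀
      have hp : Fact p.Prime := ⟨CharP.char_is_prime F₀ p⟩
      obtain ⟨n, -, hn⟩ := FiniteField.card F₀ p
      rw [CharP.cast_eq_zero_iff F₀ p, hn]
      exact dvd_pow_self p n.2.ne'
    rw [← Nat.card_eq_fintype_card, h] at h3
    have h4 : (2 : F₀) = 0 := by exact_mod_cast h3
    rw [← map_ofNat (algebraMap F₀ F) 2, h4, map_zero]
  have hQ3 : 3 ≤ Nat.card F₀ := by omega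
  have hl0 : (lam : F) ≠ 0 := lam.ne_zero
  have hbig : Nat.card F₀ ^ 2 ≤ Fintype.card F := by
    rw [hc]; exact Nat.pow_le_pow_right (by omega) hr
  have hQ9 : 9 ≤ Fintype.card F := by nlinarith
  have h1 : ∀ k : ℕ, 0 < k → k < Fintype.card F - 1 → (lam : F) ^ k ≠ 1 := by
    intro k hk hk2 h
    have : lam ^ k = 1 := Units.ext (by simpa using h)
    have h2 := Nat.le_of_dvd hk (orderOf_dvd_of_pow_eq_one this)
    omega
  rcases hA.subfield hl0 hmem with h | h
  · apply h1 3 (by norm_num) (by omega)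
    have h2 : (lam : F) * (1 + lam + (lam : F)⁻¹) = 0 := by rw [h, mul_zero]
    have h3 : (lam : F) * (lam : F)⁻¹ = 1 := mul_inv_cancel₀ hl0
    linear_combination ((lam : F) - 1) * h2 - ((lam : F) - 1) * h3
  · -- `lam ^ Q = lam ^ ± 1`, `Q = |F₀|`
    set Q := Nat.card F₀ with hQ
    have h2 : ((lam : F) + (lam : F)⁻¹) ^ Q = (lam : F) + (lam : F)⁻¹ := by
      have h3 := FiniteField.pow_card (⟨_, h⟩ : F₀)
      rw [← Nat.card_eq_fintype_card] at h3
      exact congrArg Subtype.val h3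
    -- additivity of the `Q`-power
    have h3 : ((lam : F) + (lam : F)⁻¹) ^ Q = (lam : F) ^ Q + ((lam : F)⁻¹) ^ Q := by
      obtain ⟨p, hcp⟩ := CharP.exists F₀
      have hp : Fact p.Prime := ⟨CharP.char_is_prime F₀ p⟩
      obtain ⟨n, -, hn⟩ := FiniteField.card F₀ p
      have : CharP F p := by
        exact charP_of_injective_algebraMap (algebraMap F₀ F).injective p
      rw [hQ, Nat.card_eq_fintype_card, hn]
      exact add_pow_char_pow (R := F) (lam : F) (lam : F)⁻¹ p n
    rw [h3] at h2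
    have h4 : ((lam : F) ^ (Q - 1) - 1) * ((lam : F) ^ (Q + 1) - 1) = 0 := by
      obtain ⟨k, hk⟩ : ∃ k, Q = k + 1 := ⟨Q - 1, by omega⟩
      rw [hk] at h2 ⊢
      rw [Nat.add_sub_cancel]
      have h5 : ((lam : F)⁻¹) ^ (k + 1) * (lam : F) ^ (k + 1) = 1 := by rw [← mul_pow, inv_mul_cancel₀ hl0, one_pow]
      have h6 : (lam : F) * (lam : F)⁻¹ = 1 := mul_inv_cancel₀ hl0
      have h7 : (lam : F) ^ (k + 1) = lam ^ k * lam := pow_succ _ _
      have h8 : (lam : F) ^ (k + 1 + 1) = lam ^ k * lam * lam := by rw [pow_succ, pow_succ]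
      rw [h7] at h2 h5
      rw [h8]
      linear_combination ((lam : F) ^ k * lam) * h2 - h5 + (lam : F) ^ k * h6
    have hlt : Q + 1 < Fintype.card F - 1 := by
      have : Q + 2 < Q ^ 2 := by nlinarith
      omega
    rcases mul_eq_zero.1 h4 with h5 | h5
    · exact h1 (Q - 1) (by omega) (by omega) (sub_eq_zero.1 h5)
    · exact h1 (Q + 1) (by omega) hlt (sub_eq_zero.1 h5)

/-- **the maximal subgroups of odd index meeting all real classes are parabolic** -/
theorem coatom_cases {p : ℕ} [hp : Fact p.Prime] [hcp : CharP F p] (hp3 : 3 ≤ p) (h2 : (2 : F) ≠ 0)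
    {M : Subgroup PSL3} (hM : IsCoatom M) (hcov : Cov PSL3 M) :
    ∃ W : Submodule F V3, W ≠ ⊥ ∧ W ≠ ⊤ ∧ pre M = subspaceStabilizer W ⊓ specialLinear (Fin 3) F := by
  classical
  have hq3 : 3 ≤ Fintype.card F := by
    obtain ⟨n, -, hn⟩ := FiniteField.card F p
    rw [hn]
    calc 3 ≤ p := hp3
      _ = p ^ 1 := (pow_one p).symm
      _ ≤ p ^ (n : ℕ) := Nat.pow_le_pow_right (by omega) n.2
  have hfin : Finite PSL3 := Quotient.finite _
  -- elements
  obtain ⟨t₀, ht₀, ht₁⟩ := exists_tv (F := F)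
  obtain ⟨lam, x₀, hlam, hx₀, hx₁⟩ := exists_eg (F := F)
  obtain ⟨Yt, hYt'⟩ := lift hcov ht₀
  obtain ⟨Yx, hYx'⟩ := lift hcov hx₀
  have hYt := mem_pre hYt'
  have hYx := mem_pre hYx'
  set t : GL (Fin 3) F := Matrix.SpecialLinearGroup.toGL (Yt * t₀ * Yt⁻¹) with htd
  set x : GL (Fin 3) F := Matrix.SpecialLinearGroup.toGL (Yx * x₀ * Yx⁻¹) with hxd
  have htT : IsTv (t : M3) := by rw [htd, coe_conj]; exact ht₁.conj _
  have hxE : IsEg (lam : F) (x : M3) := by
    rw [hxd, coe_conj, hx₁]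
    exact ⟨_, rfl⟩
  have hto : orderOf t = p := htT.orderOf hp3
  have hmax := isMaximalIn_pre hM
  rcases Cfsg.Agent.H915.sl_cases (n := 3) le_rfl hmax with h | ⟨s, m, D, htm, hD, -, -, he⟩ |
    ⟨r, K, hr, hr3, hK, he⟩ | ⟨n₁, n₂, e, P, h2', h12, h3, -, -⟩ | ⟨F₀, r, P, hr, hc, he⟩ |
    ⟨r, k, p', e, R, hR, hr, hro, heo, hk, h3, hrp, hmin, hZ, hR27, he⟩ | ⟨k, R, -, h3, -⟩ |
    ⟨m, s, e, P, hm, hs, h3, -⟩ | ⟨f, -, hev, -⟩ | ⟨σ, f, hf, he⟩ | ⟨ho, Q, hQ, he⟩ | hres
  · exact h
  · -- monomial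
    exfalso
    have hs3 : s = 3 := by
      have h2 := hD.two_le
      have h1 := hD.pos
      rcases Nat.lt_or_ge m 2 with hm | hm
      · have : m = 1 := by omega
        subst this; omega
      · exfalso
        nlinarith
    subst hs3
    have hm : m = 1 := by omega
    subst hm
    rw [he] at hYt
    exact htT.not_decomp h2 hD hYt.1
  · -- extension field
    exfalso
    have hr' : r = 3 := (Nat.prime_dvd_prime_iff_eq hr Nat.prime_three).1 hr3
    subst hr'
    have h2M : 2 ∣ Nat.card M := by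
      have := (hcov.two_part (k := 1)).1 (by rw [pow_one]; exact even_card le_rfl)
      rwa [pow_one] at this
    obtain ⟨z, hz, hzH⟩ := exists_of_dvd Nat.prime_two h2M
    rw [he] at hzH
    exact Cfsg.Agent.H304.ExtInv.no_involution (by decide) hK hz hzH.1 hzH.2
  · exfalso
    nlinarith
  · exfalso
    rw [he] at hYx
    exact case_subfield hq3 hlam h2 hxE hr.two_le hc hYx.1
  · exfalso
    have hr3 : r = 3 := by
      have h1 : r ∣ 3 := by rw [h3]; exact dvd_pow_self r (by omega)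
      exact (Nat.prime_dvd_prime_iff_eq hr Nat.prime_three).1 h1
    subst hr3
    have hk1 : k = 1 := by
      have : 3 ^ k = 3 ^ 1 := by rw [← h3, pow_one]
      exact Nat.pow_right_injective (by norm_num) this
    subst hk1
    have hpp : p' = p := by
      have h1 := hmin.2.1
      exact CharP.eq F h1 hcp
    have h5 : 5 ≤ p := by
      rw [← hpp] at hp3 hp ⊢
      have h4 : p' ≠ 4 := fun h => by
        have := hp.out; rw [h] at this; revert this; decide
      omega
    rw [he] at hYt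
    obtain ⟨c, hc⟩ := Cfsg.Agent.H907.Mx.symp_prime hR.absIrred (by rw [hR27]; norm_num) hZ hYt.1 hp.out h5
      (by rw [← hto]; exact pow_orderOf_eq_one t)
    exact htT.ne_scalar c hc
  · exfalso
    rcases Nat.eq_zero_or_pos k with h | h
    · subst h; omega
    · have : 2 ∣ 3 := by rw [h3]; exact dvd_pow_self 2 (by omega)
      omega
  · exfalso
    have : 3 ^ 2 ≤ m ^ s := (Nat.pow_le_pow_left hm 2).trans (Nat.pow_le_pow_right (by omega) hs)
    omega
  · exfalso
    exact absurd hev (by decide)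
  · exfalso
    obtain ⟨p', k, hp', hcp', hF, hσ⟩ := Cfsg.Agent.H304.Ppd.exists_frobenius hf.ne_refl hf.involutive
    rw [he] at hYx
    refine IsEg.not_unitary hF ?_ hσ hlam hxE hf hYx.1
    by_contra hcon
    push Not at hcon
    have hpp : p' = p := CharP.eq F hcp' hcp
    have h1 : 9 ≤ Fintype.card F ∨ Fintype.card F < 9 := by omega
    rw [hpp] at hF hcon
    rcases Nat.eq_zero_or_pos k with h | h
    · rw [h] at hF; norm_num at hF; omega
    · have : p ^ 1 ≤ p ^ k := Nat.pow_le_pow_right (by omega) h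
      rw [pow_one] at this
      omega
  · exfalso
    rw [he] at hYt
    exact htT.not_quad h2 hQ hYt.1
  · exfalso
    have hpM : p ∣ Nat.card M := by
      have h1 : RealP PSL3 p := by
        refine ⟨pr 3 F t₀, ?_, ht₀.map _⟩
        apply orderOf_eq_prime
        · rw [← map_pow]
          have : t₀ ^ p = 1 := by
            apply Subtype.ext
            rw [Matrix.SpecialLinearGroup.coe_pow, Matrix.SpecialLinearGroup.coe_one]
            exact pow_char_of (p := p) ht₁.cube hp3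
          rw [this, map_one]
        · intro h
          have h3 : t₀ ∈ Subgroup.center SL3 := (QuotientGroup.eq_one_iff _).1 h
          rw [Matrix.SpecialLinearGroup.mem_center_iff] at h3
          obtain ⟨c, -, hc⟩ := h3
          apply ht₁.ne_scalar c
          rw [← hc, Matrix.scalar_apply, ← Matrix.smul_one_eq_diagonal]
      exact hcov.dvd h1
    obtain ⟨P, p', hcore, hp', hchar, hcases⟩ := Cfsg.Agent.S5776.result (pre M) hmax hres
    have hpp : p' = p := CharP.eq F hchar hcp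
    subst hpp
    have hcard := hpM.trans (card_dvd_mulAut (by norm_num) hcore)
    rcases hcases with ⟨⟨e⟩, hF, hp2, hp7⟩ | ⟨⟨e⟩, hF⟩
    · rw [Nat.card_congr (MulAut.congr e).toEquiv, Cfsg.Agent.H304.Psl3.card_mulAut_L32] at hcard
      have h2 : p' ∣ 2 ^ 4 * (3 * 7) := by norm_num; exact hcard
      rcases hp'.dvd_mul.mp h2 with h3 | h3
      · have := (Nat.prime_dvd_prime_iff_eq hp' Nat.prime_two).mp (hp'.dvd_of_dvd_pow h3)
        omega
      · rcases hp'.dvd_mul.mp h3 with h4 | h4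
        · have := (Nat.prime_dvd_prime_iff_eq hp' Nat.prime_three).mp h4
          omega
        · have := (Nat.prime_dvd_prime_iff_eq hp' (by norm_num)).mp h4
          omega
    · rw [Nat.card_congr (MulAut.congr e).toEquiv] at hcard
      have hcard2 := hcard.trans Cfsg.Agent.H753.ResCard.card_mulAut_A6
      have h2 : p' ∣ 2 ^ 5 * (3 ^ 2 * 5) := by norm_num; exact hcard2
      have h235 : p' = 2 ∨ p' = 3 ∨ p' = 5 := by
        rcases hp'.dvd_mul.mp h2 with h3 | h3
        · exact Or.inl ((Nat.prime_dvd_prime_iff_eq hp' Nat.prime_two).mp (hp'.dvd_of_dvd_pow h3))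
        · rcases hp'.dvd_mul.mp h3 with h4 | h4
          · exact Or.inr (Or.inl ((Nat.prime_dvd_prime_iff_eq hp' Nat.prime_three).mp (hp'.dvd_of_dvd_pow h4)))
          · exact Or.inr (Or.inr ((Nat.prime_dvd_prime_iff_eq hp' (by norm_num)).mp h4))
      rcases hF with ⟨hF, h15⟩ | ⟨hF, hp3', h5⟩ <;> omega

end Cfsg.Agent.H746.OddM.ThreeL
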