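import Cfsg.Agent.H746.OddM.ThreeLPt
import Cfsg.Agent.H746.OddM.ThreeLCases

/-!
# S4785, the groups `PSL_3(q)`, `q` odd (helper746, TEAM ODDM)
-/

set_option autoImplicit false

namespace Cfsg.Agent.H746.OddM.ThreeL

open Cfsg Cfsg.Geo Matrix Cfsg.Agent.H746.OddM.Three Cfsg.Agent.H453.OddM
open Cfsg.Agent.H304.PslT (pr pre)
open scoped MatrixGroups LinearAlgebra.Projectivization

variable {F : Type*} [Field F]

local notation "V3" => Fin 3 → F
local notation "M3" => Matrix (Fin 3) (Fin 3) F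
local notation "SL3" => Matrix.SpecialLinearGroup (Fin 3) F
local notation "PSL3" => Matrix.ProjectiveSpecialLinearGroup (Fin 3) F
local notation "Om" => ℙ F (Fin 3 → F)

/-- two orbits -/
theorem card_orb_two {T : Type*} [Group T] {R K : Subgroup T} {a₀ : T} (ha₀ : a₀ ∉ K)
    (h : ∀ a b, a ∉ K → b ∉ K → ∃ r ∈ R, b⁻¹ * (r * a) ∈ K) (hRK : R ≤ K) :
    Nat.card (MulAction.orbitRel.Quotient K (T ⧸ R)) = 2 := by
  rw [Nat.card_eq_two_iff]
  refine ⟨Quotient.mk'' (QuotientGroup.mk 1 : T ⧸ R), Quotient.mk'' (QuotientGroup.mk a₀ : T ⧸ R), ?_, ?_⟩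
  · intro h1
    have h2 : (QuotientGroup.mk 1 : T ⧸ R) ∈ MulAction.orbit K (QuotientGroup.mk a₀ : T ⧸ R) :=
      MulAction.orbitRel_apply.1 (Quotient.exact h1)
    obtain ⟨⟨k, hk⟩, h3⟩ := h2
    have h4 : (QuotientGroup.mk (k * a₀) : T ⧸ R) = QuotientGroup.mk 1 := h3
    rw [QuotientGroup.eq, mul_one] at h4
    apply ha₀
    have h5 := K.mul_mem (K.inv_mem hk) (K.inv_mem (hRK h4))
    rwa [inv_inv, inv_mul_cancel_left] at h5
  · rw [Set.eq_univ_iff_forall]
    intro z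
    induction z using Quotient.inductionOn' with | h w => ?_
    obtain ⟨g, rfl⟩ := QuotientGroup.mk_surjective w
    by_cases hg : g ∈ K
    · left
      apply Quotient.sound
      refine MulAction.orbitRel_apply.2 ⟨⟨g, hg⟩, ?_⟩
      change (QuotientGroup.mk (g * 1) : T ⧸ R) = QuotientGroup.mk g
      rw [mul_one]
    · right
      apply Quotient.sound
      obtain ⟨r, hr, hk⟩ := h a₀⁻¹ g⁻¹ (fun h => ha₀ (inv_mem_iff.1 h)) (fun h => hg (inv_mem_iff.1 h))
      rw [inv_inv] at hk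
      refine MulAction.orbitRel_apply.2 ⟨⟨g * (r * a₀⁻¹), hk⟩, ?_⟩
      change (QuotientGroup.mk (g * (r * a₀⁻¹) * a₀) : T ⧸ R) = QuotientGroup.mk g
      rw [QuotientGroup.eq]
      have : (g * (r * a₀⁻¹) * a₀)⁻¹ * g = r⁻¹ := by group
      rw [this]
      exact R.inv_mem hr

/-- the centre acts trivially -/
theorem center_smul {z : SL3} (hz : z ∈ Subgroup.center SL3) (P : Om) : z • P = P := by
  rw [Matrix.SpecialLinearGroup.mem_center_iff] at hz
  obtain ⟨c, -, hc⟩ := hz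
  induction P with | h v hv => ?_
  rw [fixed_iff_eig]
  refine ⟨c, ?_⟩
  rw [← hc, Matrix.scalar_apply, ← Matrix.smul_one_eq_diagonal, Matrix.smul_mulVec, Matrix.one_mulVec]

/-- the image of the stabilizer of a point -/
def Kb (P : Om) : Subgroup PSL3 := (MulAction.stabilizer SL3 P).map (pr 3 F)

theorem mem_Kb {P : Om} {g : SL3} : pr 3 F g ∈ Kb P ↔ g • P = P := by
  constructor
  · rintro ⟨k, hk, hkg⟩
    have h1 : k⁻¹ * g ∈ Subgroup.center SL3 := (QuotientGroup.eq).1 hkg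
    have h2 : (k⁻¹ * g) • P = P := center_smul h1 P
    have h3 : k • P = P := hk
    rw [mul_smul, inv_smul_eq_iff, h3] at h2
    exact h2
  · intro h
    exact ⟨g, h, rfl⟩

variable [Fintype F]

/-- the index is prime to `q + 1` -/
theorem coprime_index {p : ℕ} [hp : Fact p.Prime] [hcp : CharP F p] (h2 : (2 : F) ≠ 0)
    (hodd : Fintype.card F % 2 = 1) {R : Subgroup PSL3} (hR : Cov PSL3 R) :
    Nat.Coprime R.index (Fintype.card F + 1) := by
  classical
  set q := Fintype.card F with hq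
  have hq1 : 2 ≤ q := Fintype.one_lt_card
  have h1 := S0243.result (F := F) rfl 3 (by norm_num)
  rw [← hq] at h1
  have hfin : Finite PSL3 := Quotient.finite _
  have hd := hR.dvd (realP_add (p := p) hodd h2)
  rw [← hq] at hd
  obtain ⟨m, hm⟩ := hd
  have h3 := R.card_mul_index
  rw [← h3, hm, Fin.prod_univ_three] at h1
  simp only [Fin.val_zero, Fin.val_one, Fin.val_two, pow_zero, pow_one] at h1
  have h4 : q ^ 3 - q = q * ((q - 1) * (q + 1)) := by
    obtain ⟨k, hk⟩ : ∃ k, q = k + 1 := ⟨q - 1, by omega⟩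
    rw [hk, Nat.add_sub_cancel]
    apply Nat.sub_eq_of_eq_add
    ring
  have h5 : q ^ 3 - q ^ 2 = q ^ 2 * (q - 1) := by
    rw [Nat.mul_sub, mul_one, ← pow_succ]
  rw [h4, h5] at h1
  set i := R.index with hi
  have h6 : i ∣ q ^ 3 * (q - 1) * (q ^ 3 - 1) := by
    refine ⟨Nat.gcd 3 (q - 1) * m, ?_⟩
    have h7 : 0 < (q - 1) * (q + 1) := Nat.mul_pos (by omega) (by omega)
    apply Nat.eq_of_mul_eq_mul_left h7
    calc (q - 1) * (q + 1) * (q ^ 3 * (q - 1) * (q ^ 3 - 1))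
        = (q ^ 3 - 1) * (q * ((q - 1) * (q + 1))) * (q ^ 2 * (q - 1)) := by ring
      _ = _ := by rw [← h1]; ring
  rw [Nat.coprime_iff_gcd_eq_one]
  by_contra hg
  obtain ⟨r, hr, hrg⟩ := Nat.exists_prime_and_dvd hg
  have hri : r ∣ i := hrg.trans (Nat.gcd_dvd_left _ _)
  have hrq : r ∣ q + 1 := hrg.trans (Nat.gcd_dvd_right _ _)
  have hr2 : r ≠ 2 := by
    rintro rfl
    exact (Nat.not_even_iff_odd.2 hR.1) (even_iff_two_dvd.2 hri)
  have hr2' : ¬ r ∣ 2 := fun h => hr2 ((Nat.prime_dvd_prime_iff_eq hr Nat.prime_two).1 h)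
  rcases hr.dvd_mul.1 (hri.trans h6) with h7 | h7
  · rcases hr.dvd_mul.1 h7 with h8 | h8
    · have := (Nat.dvd_add_right (hr.dvd_of_dvd_pow h8)).1 hrq
      exact hr.one_lt.ne' (Nat.dvd_one.1 this)
    · have := Nat.dvd_sub hrq h8
      apply hr2'
      have h9 : q + 1 - (q - 1) = 2 := by omega
      rwa [h9] at this
  · have h8 : r ∣ q ^ 3 + 1 := by
      refine hrq.trans ⟨q ^ 2 - q + 1, ?_⟩
      have h9 : q ≤ q ^ 2 := by nlinarith
      zify [h9]
      ring
    have := Nat.dvd_sub h8 h7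
    apply hr2'
    have h9 : 1 ≤ q ^ 3 := Nat.one_le_pow _ _ (by omega)
    have h10 : q ^ 3 + 1 - (q ^ 3 - 1) = 2 := by omega
    rwa [h10] at this

/-- **subgroups fixing a point** -/
theorem point_case {p : ℕ} [hp : Fact p.Prime] [hcp : CharP F p] (hp3 : 3 ≤ p) (h2 : (2 : F) ≠ 0)
    (hodd : Fintype.card F % 2 = 1) {R : Subgroup PSL3} (hR : RO PSL3 R) {v : Fin 3 → F} (hv : v ≠ 0)
    (hRv : ∀ g : SL3, pr 3 F g ∈ R → g • Projectivization.mk F v hv = Projectivization.mk F v hv) : False := by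
  classical
  have hfin : Finite PSL3 := Quotient.finite _
  have hpq : p ∣ Fintype.card F := by
    obtain ⟨n, -, hn⟩ := FiniteField.card F p
    rw [hn]; exact dvd_pow_self p n.2.ne'
  have hq3 : 3 ≤ Fintype.card F := hp3.trans (Nat.le_of_dvd Fintype.card_pos hpq)
  obtain ⟨u₀, hu₀, hu₁, hu₂⟩ := exists_ru h2
  obtain ⟨lam, x₀, hlam, hx₀, hx₁⟩ := exists_eg (F := F)
  obtain ⟨Yu, hYu⟩ := lift hR.cov hu₀
  obtain ⟨Yx, hYx⟩ := lift hR.cov hx₀
  set S : Subgroup SL3 := R.comap (pr 3 F) with hS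
  set P : Om := Projectivization.mk F v hv with hP
  have hSP : S ≤ MulAction.stabilizer SL3 P := fun g hg => hRv g hg
  have hind : S.index = R.index := R.index_comap_of_surjective (QuotientGroup.mk'_surjective _)
  have hup : (Yu * u₀ * Yu⁻¹) ^ p = 1 := by
    have h3 : u₀ ^ p = 1 := by
      apply Subtype.ext
      rw [Matrix.SpecialLinearGroup.coe_pow, Matrix.SpecialLinearGroup.coe_one]
      exact pow_char_of (p := p) hu₁.1 hp3
    rw [conj_pow, h3, mul_one, mul_inv_cancel]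
  have hufix : ∀ P Q : Om, (Yu * u₀ * Yu⁻¹) • P = P → (Yu * u₀ * Yu⁻¹) • Q = Q → P = Q := by
    intro P Q h3 h4
    rw [mul_smul, mul_smul, smul_eq_iff_eq_inv_smul] at h3 h4
    exact smul_left_cancel _ (ru_fix hu₂ h3 h4)
  -- the torus element
  have hxP : (Yx * x₀ * Yx⁻¹) • P = P := hRv _ hYx
  obtain ⟨μ, hμ⟩ := (fixed_iff_eig hv).1 hxP
  have hv₀ : ((Yx⁻¹ : SL3) : M3) *ᵥ v ≠ 0 := mulVec_ne_zero _ hv
  have hμ₀ : (x₀ : M3) *ᵥ (((Yx⁻¹ : SL3) : M3) *ᵥ v) = μ • (((Yx⁻¹ : SL3) : M3) *ᵥ v) := by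
    rw [mul_mulVec, mul_mulVec] at hμ
    rw [← inv_mulVec_mulVec Yx ((x₀ : M3) *ᵥ (((Yx⁻¹ : SL3) : M3) *ᵥ v)), hμ, Matrix.mulVec_smul]
  have hl1 : lam ≠ 1 := by
    rintro rfl
    rw [orderOf_one] at hlam
    omega
  obtain ⟨w₀, ν, hw₀, hxw₀, hν, hμ0⟩ := eg_vec hx₁ hl1 hv₀ hμ₀
  have hνo : orderOf ν = Fintype.card F - 1 := by
    rcases hν with rfl | rfl
    · exact hlam
    · rw [orderOf_inv]; exact hlam
  have hν1 : (ν : F) ≠ 1 := by
    intro h
    have : ν = 1 := Units.ext h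
    rw [this, orderOf_one] at hνo
    omega
  set w' : Fin 3 → F := (Yx : M3) *ᵥ w₀ with hw'
  have hw'0 : w' ≠ 0 := mulVec_ne_zero _ hw₀
  have hxw : ((Yx * x₀ * Yx⁻¹ : SL3) : M3) *ᵥ w' = (μ * ν) • w' := by
    rw [mul_mulVec, mul_mulVec, hw', inv_mulVec_mulVec, hxw₀, Matrix.mulVec_smul]
  have hvw' : LinearIndependent F ![v, w'] := by
    rw [LinearIndependent.pair_iff]
    intro a b hab
    have h3 : a • (μ • v) + b • ((μ * ν) • w') = 0 := by
      rw [← hμ, ← hxw, ← Matrix.mulVec_smul, ← Matrix.mulVec_smul, ← Matrix.mulVec_add, hab, Matrix.mulVec_zero]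
    have h4 : (b * (μ * (ν - 1))) • w' = 0 := by
      have h5 : (b * (μ * (ν - 1))) • w' = (a • (μ • v) + b • ((μ * ν) • w')) - μ • (a • v + b • w') := by
        module
      rw [h5, h3, hab, smul_zero, sub_zero]
    have h5 := (smul_eq_zero.1 h4).resolve_right hw'0
    have hb : b = 0 := by
      rcases mul_eq_zero.1 h5 with h6 | h6
      · exact h6
      · rcases mul_eq_zero.1 h6 with h7 | h7
        · exact absurd h7 hμ0
        · exact absurd (sub_eq_zero.1 h7) hν1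
    rw [hb, zero_smul, add_zero] at hab
    exact ⟨(smul_eq_zero.1 hab).resolve_right hv, hb⟩
  have hcop : Nat.Coprime S.index (Fintype.card F + 1) := by
    rw [hind]; exact coprime_index (p := p) h2 hodd hR.cov
  obtain ⟨Q, hQ⟩ := trans_point (p := p) hpq hvw' hSP hcop hYu hup hufix hYx hμ0 hμ hxw hνo
  -- two orbits
  have hPQ : P ≠ Q := by
    have h3 : Q ∈ MulAction.orbit S Q := MulAction.mem_orbit_self Q
    rw [hQ] at h3
    exact fun h => h3 h.symm
  obtain ⟨a₀, ha₀⟩ := MulAction.exists_smul_eq SL3 P Q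
  apply hR.not_even_orb (Kb P)
  rw [card_orb_two (a₀ := pr 3 F a₀)]
  · exact even_two
  · rw [mem_Kb, ha₀]
    exact hPQ.symm
  · intro a b ha hb
    obtain ⟨a, rfl⟩ := QuotientGroup.mk'_surjective _ a
    obtain ⟨b, rfl⟩ := QuotientGroup.mk'_surjective _ b
    rw [mem_Kb] at ha hb
    have h3 : a • P ∈ MulAction.orbit S Q := by rw [hQ]; exact ha
    have h4 : b • P ∈ MulAction.orbit S Q := by rw [hQ]; exact hb
    obtain ⟨⟨s₁, hs₁⟩, h5⟩ := h3
    obtain ⟨⟨s₂, hs₂⟩, h6⟩ := h4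
    have h5' : s₁ • Q = a • P := h5
    have h6' : s₂ • Q = b • P := h6
    refine ⟨pr 3 F (s₂ * s₁⁻¹), S.mul_mem hs₂ (S.inv_mem hs₁), ?_⟩
    rw [← map_inv, ← map_mul, ← map_mul, mem_Kb, mul_smul, mul_smul, ← h5', mul_smul, inv_smul_smul, h6',
      inv_smul_smul]
  · intro r hr
    obtain ⟨r, rfl⟩ := QuotientGroup.mk'_surjective _ r
    rw [mem_Kb]
    exact hRv r hr

/-! ### duality -/

omit [Fintype F] in
/-- the inverse transpose -/
def th : SL3 ≃* SL3 where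
  toFun g := ⟨((g⁻¹ : SL3) : M3)ᵀ, by rw [Matrix.det_transpose]; exact (g⁻¹).2⟩
  invFun g := ⟨((g⁻¹ : SL3) : M3)ᵀ, by rw [Matrix.det_transpose]; exact (g⁻¹).2⟩
  left_inv g := by
    apply Subtype.ext
    change (((g⁻¹ : SL3) : M3)ᵀ).adjugateᵀ = (g : M3)
    rw [Matrix.adjugate_transpose, Matrix.transpose_transpose]
    change (((g⁻¹)⁻¹ : SL3) : M3) = _
    rw [inv_inv]
  right_inv g := by
    apply Subtype.ext
    change (((g⁻¹ : SL3) : M3)ᵀ).adjugateᵀ = (g : M3)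
    rw [Matrix.adjugate_transpose, Matrix.transpose_transpose]
    change (((g⁻¹)⁻¹ : SL3) : M3) = _
    rw [inv_inv]
  map_mul' g h := by
    apply Subtype.ext
    change (((g * h)⁻¹ : SL3) : M3)ᵀ = ((g⁻¹ : SL3) : M3)ᵀ * ((h⁻¹ : SL3) : M3)ᵀ
    rw [_root_.mul_inv_rev, Matrix.SpecialLinearGroup.coe_mul, Matrix.transpose_mul]

omit [Fintype F] in
theorem th_coe (g : SL3) : ((th g : SL3) : M3) = ((g⁻¹ : SL3) : M3)ᵀ := rfl

/-- the induced automorphism -/
def thb : PSL3 ≃* PSL3 :=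
  QuotientGroup.congr (Subgroup.center SL3) (Subgroup.center SL3) th
    (Subgroup.characteristic_iff_map_eq.1 inferInstance th)

omit [Fintype F] in
theorem thb_mk (g : SL3) : thb (pr 3 F g) = pr 3 F (th g) := rfl

omit [Fintype F] in
theorem th_dot (g : SL3) (m w : V3) : (((th g : SL3) : M3) *ᵥ w) ⬝ᵥ ((g : M3) *ᵥ m) = w ⬝ᵥ m := by
  rw [th_coe, Matrix.mulVec_transpose, ← Matrix.dotProduct_mulVec, inv_mulVec_mulVec]

omit [Fintype F] in
/-- the normal vector of a plane -/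
theorem exists_normal {W : Submodule F V3} (hW : Module.finrank F W = 2) :
    ∃ n : V3, n ≠ 0 ∧ (∀ w ∈ W, w ⬝ᵥ n = 0) ∧ ∀ m : V3, (∀ w ∈ W, w ⬝ᵥ m = 0) → ∃ c : F, m = c • n := by
  classical
  let D : Submodule F V3 :=
    { carrier := {m | ∀ w ∈ W, w ⬝ᵥ m = 0}
      add_mem' := fun {a b} ha hb w hw => by rw [dotProduct_add, ha w hw, hb w hw, add_zero]
      zero_mem' := fun w _ => dotProduct_zero w
      smul_mem' := fun c a ha w hw => by rw [dotProduct_smul, ha w hw, smul_zero] }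
  have hD : Module.finrank F D = 1 := by
    have h1 := Subspace.finrank_add_finrank_dualAnnihilator_eq W
    have h2 : Module.finrank F D = Module.finrank F W.dualAnnihilator := by
      let e : V3 ≃ₗ[F] Module.Dual F V3 := dotProductEquiv F (Fin 3)
      have h3 : D.map (e : V3 →ₗ[F] Module.Dual F V3) = W.dualAnnihilator := by
        ext φ
        rw [Submodule.mem_map, Submodule.mem_dualAnnihilator]
        constructor
        · rintro ⟨m, hm, rfl⟩ w hw
          change m ⬝ᵥ w = 0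
          rw [dotProduct_comm]
          exact hm w hw
        · intro h
          obtain ⟨m, rfl⟩ := e.surjective φ
          refine ⟨m, fun w hw => ?_, rfl⟩
          rw [dotProduct_comm]
          exact h w hw
      rw [← h3]
      exact (LinearEquiv.finrank_map_eq e D).symm
    rw [Module.finrank_fin_fun] at h1
    omega
  obtain ⟨⟨n, hn⟩, hn0, hs⟩ := finrank_eq_one_iff'.1 hD
  refine ⟨n, fun h => hn0 (Subtype.ext h), hn, fun m hm => ?_⟩
  obtain ⟨c, hc⟩ := hs ⟨m, hm⟩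
  exact ⟨c, (congrArg Subtype.val hc).symm⟩

/-- **`PSL_3(q)`** -/
theorem row {p : ℕ} [hp : Fact p.Prime] [hcp : CharP F p] (hp3 : 3 ≤ p) (h2 : (2 : F) ≠ 0)
    (hodd : Fintype.card F % 2 = 1) : Row PSL3 := by
  classical
  intro R hR
  have hfin : Finite PSL3 := Quotient.finite _
  by_contra hne
  obtain ⟨M, hM, hRM⟩ := (eq_top_or_exists_le_coatom R).resolve_left hne
  obtain ⟨W, hW0, hW1, hW⟩ := coatom_cases (p := p) hp3 h2 hM (hR.cov.mono hRM)
  have hst : ∀ g : SL3, pr 3 F g ∈ R → ∀ w : V3, w ∈ W → (g : M3) *ᵥ w ∈ W := by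
    intro g hg w hw
    have h1 : Matrix.SpecialLinearGroup.toGL g ∈ pre M := mem_pre (hRM hg)
    rw [hW] at h1
    exact (h1.1 w).1 hw
  have hfr : Module.finrank F W < 3 := by
    have := Submodule.finrank_lt hW1
    rwa [Module.finrank_fin_fun] at this
  have hfr0 : 0 < Module.finrank F W := Nat.pos_of_ne_zero fun h => hW0 (Submodule.finrank_eq_zero.mp h)
  have hcase : Module.finrank F W = 1 ∨ Module.finrank F W = 2 := by omega
  rcases hcase with h1 | h1
  · obtain ⟨⟨v, hvW⟩, hv0, hs⟩ := finrank_eq_one_iff'.1 h1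
    have hv : v ≠ 0 := fun h => hv0 (Subtype.ext h)
    refine point_case (p := p) hp3 h2 hodd hR hv fun g hg => ?_
    rw [fixed_iff_eig]
    obtain ⟨c, hc⟩ := hs ⟨_, hst g hg v hvW⟩
    exact ⟨c, (congrArg Subtype.val hc).symm⟩
  · obtain ⟨n, hn0, hn, hs⟩ := exists_normal h1
    refine point_case (p := p) hp3 h2 hodd (hR.comap thb) hn0 fun g hg => ?_
    rw [fixed_iff_eig]
    have hg' : pr 3 F (th g) ∈ R := hg
    have hmap : ∀ w ∈ W, ∃ w' ∈ W, ((th g : SL3) : M3) *ᵥ w' = w := by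
      intro w hw
      have h3 : pr 3 F (th g)⁻¹ ∈ R := by rw [map_inv]; exact R.inv_mem hg'
      exact ⟨_, hst _ h3 w hw, mulVec_inv_mulVec _ _⟩
    obtain ⟨c, hc⟩ := hs ((g : M3) *ᵥ n) (fun w hw => by
      obtain ⟨w', hw', rfl⟩ := hmap w hw
      rw [th_dot]
      exact hn w' hw')
    exact ⟨c, hc⟩

universe u

/-- **C10b, linear** -/
theorem row_psl_three (q : ℕ) (hq : ¬ 2 ∣ q) : RowN.{u} (.psl 3 q) := by
  intro T _ _ _ hT
  obtain ⟨F, _, _, hF, ⟨e⟩⟩ := hT.real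
  subst hF
  obtain ⟨p, hcp⟩ := CharP.exists F
  have hp : Fact p.Prime := ⟨CharP.char_is_prime F p⟩
  obtain ⟨n, -, hn⟩ := FiniteField.card F p
  have hpq : p ∣ Fintype.card F := by rw [hn]; exact dvd_pow_self p n.2.ne'
  have hp2 : p ≠ 2 := by
    intro h
    rw [h] at hpq
    exact hq hpq
  have hp3 : 3 ≤ p := by
    have := hp.out.two_le
    omega
  have h2 : (2 : F) ≠ 0 := by
    intro h
    have h1 : p ∣ 2 := (CharP.cast_eq_zero_iff F p 2).1 (by exact_mod_cast h)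
    have := Nat.le_of_dvd two_pos h1
    omega
  have hfin : Finite (Matrix.ProjectiveSpecialLinearGroup (Fin 3) F) := Quotient.finite _
  exact Row8.congr e.symm (Row.row8 (row (p := p) hp3 h2 (by omega)))

end Cfsg.Agent.H746.OddM.ThreeL
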