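import Cfsg.Agent.H746.OddM.ThreeChar
import Cfsg.Agent.H746.OddM.PslTwo
import Cfsg.Agent.H304.PslTransfer

/-!
# S4785: real elements of `SL_3(q)`, `q` odd (helper746, TEAM ODDM)
-/

set_option autoImplicit false

namespace Cfsg.Agent.H746.OddM.ThreeL

open Cfsg Cfsg.Geo Matrix Cfsg.Agent.H746.OddM.Three Cfsg.Agent.H453.OddM
open Cfsg.Agent.H390.PslSpec (comp)
open Cfsg.Agent.H304.PslT (pr)
open scoped MatrixGroups

variable {F : Type*} [Field F]

local notation "V3" => Fin 3 → F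
local notation "M3" => Matrix (Fin 3) (Fin 3) F
local notation "SL2" => Matrix.SpecialLinearGroup (Fin 2) F
local notation "SL3" => Matrix.SpecialLinearGroup (Fin 3) F
local notation "PSL3" => Matrix.ProjectiveSpecialLinearGroup (Fin 3) F

/-- `1 ⊕ A` -/
def emb : SL2 →* SL3 where
  toFun A := ⟨!![1, 0, 0; 0, A.1 0 0, A.1 0 1; 0, A.1 1 0, A.1 1 1], by
    have h := A.2
    rw [Matrix.det_fin_two] at h
    rw [Matrix.det_fin_three]
    simp
    exact h⟩
  map_one' := by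
    apply Subtype.ext
    ext i j
    fin_cases i <;> fin_cases j <;> simp
  map_mul' A B := by
    apply Subtype.ext
    change (!![1, 0, 0; 0, (A.1 * B.1) 0 0, (A.1 * B.1) 0 1; 0, (A.1 * B.1) 1 0, (A.1 * B.1) 1 1] : M3) =
      !![1, 0, 0; 0, A.1 0 0, A.1 0 1; 0, A.1 1 0, A.1 1 1] * !![1, 0, 0; 0, B.1 0 0, B.1 0 1; 0, B.1 1 0, B.1 1 1]
    ext i j
    fin_cases i <;> fin_cases j <;> simp [Matrix.mul_apply, Fin.sum_univ_three, Fin.sum_univ_two]

theorem emb_coe (A : SL2) : ((emb A : SL3) : M3) = !![1, 0, 0; 0, A.1 0 0, A.1 0 1; 0, A.1 1 0, A.1 1 1] := rfl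

theorem emb_injective : Function.Injective (fun A : SL2 => pr 3 F (emb A)) := by
  intro A B h
  have h1 : pr 3 F (emb (A⁻¹ * B)) = 1 := by
    have h' : pr 3 F (emb A) = pr 3 F (emb B) := h
    rw [map_mul, map_mul, map_inv, map_inv, h', inv_mul_cancel]
  have h2 : emb (A⁻¹ * B) ∈ Subgroup.center SL3 := (QuotientGroup.eq_one_iff _).1 h1
  rw [Matrix.SpecialLinearGroup.mem_center_iff] at h2
  obtain ⟨r, -, hr⟩ := h2
  rw [emb_coe] at hr
  have h00 := congrFun (congrFun hr 0) 0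
  simp at h00
  have h11 := congrFun (congrFun hr 1) 1
  have h12 := congrFun (congrFun hr 1) 2
  have h21 := congrFun (congrFun hr 2) 1
  have h22 := congrFun (congrFun hr 2) 2
  simp [h00] at h11 h12 h21 h22
  have h3 : A⁻¹ * B = 1 := by
    apply Subtype.ext
    ext i j
    fin_cases i <;> fin_cases j <;> simp [← h11, ← h12, ← h21, ← h22]
  exact (inv_mul_eq_one.1 h3)

/-- `SL_2(q) ≤ PSL_3(q)` -/
def embP : SL2 →* PSL3 := (pr 3 F).comp emb

theorem embP_injective : Function.Injective (embP : SL2 →* PSL3) := emb_injective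

theorem orderOf_embP (A : SL2) : orderOf (embP A) = orderOf A := orderOf_injective _ embP_injective A

section

variable [Fintype F] {p : ℕ} [hp : Fact p.Prime] [hcp : CharP F p]

include hp hcp in
/-- a real element of order `q + 1` -/
theorem realP_add (hodd : Fintype.card F % 2 = 1) (h2 : (2 : F) ≠ 0) : RealP PSL3 (Fintype.card F + 1) := by
  set q := Fintype.card F with hqdef
  have hq1 : 3 ≤ q := by
    have : 1 < q := Fintype.one_lt_card
    omega
  have : CharP (AlgebraicClosure F) p := charP_of_injective_algebraMap (algebraMap F (AlgebraicClosure F)).injective p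
  obtain ⟨k, hk, hc⟩ := FiniteField.card F p
  have hne : NeZero ((q + 1 : ℕ) : AlgebraicClosure F) := by
    constructor
    rw [Ne, CharP.cast_eq_zero_iff (AlgebraicClosure F) p]
    intro h
    have h2 : p ∣ q := by rw [hqdef, hc]; exact dvd_pow_self _ k.2.ne'
    have := (Nat.dvd_add_right h2).1 h
    exact hp.out.one_lt.ne' (Nat.dvd_one.1 this)
  obtain ⟨u, hu⟩ := HasEnoughRootsOfUnity.exists_primitiveRoot (AlgebraicClosure F) (q + 1)
  have hord : orderOf u = q + 1 := hu.eq_orderOf.symm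
  have hu0 : u ≠ 0 := Cfsg.Agent.H390.PslSpec.ne_zero_of_orderOf (by omega)
  have huq : u ^ q = u⁻¹ := by
    have : u ^ q * u = 1 := by rw [← pow_succ, ← hord, pow_orderOf_eq_one]
    exact eq_inv_of_mul_eq_one_left this
  have hfix : (u + u⁻¹) ^ q = u + u⁻¹ := by
    have : (u + u⁻¹) ^ q = u ^ q + (u⁻¹) ^ q := by
      rw [hqdef, hc]
      exact add_pow_char_pow (R := AlgebraicClosure F) u u⁻¹ p k
    rw [this, inv_pow, huq, inv_inv, add_comm]
  obtain ⟨t, ht⟩ : ∃ t : F, algebraMap F (AlgebraicClosure F) t = u + u⁻¹ :=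
    Cfsg.Agent.H390.PslSpec.mem_range_of_pow_card _ hfix
  have hne : u ≠ u⁻¹ := Cfsg.Agent.H390.PslSpec.inv_ne_of_orderOf (by omega)
  have ht4 : t ^ 2 ≠ 4 := trace_ne (by omega) ht
  -- the order of `comp t`
  have ho : orderOf (comp t) = q + 1 := by
    apply Cfsg.Agent.H390.PslSpec.orderOf_eq_of_pow_iff
    intro n
    set f := algebraMap F (AlgebraicClosure F)
    have hdet : (f.mapMatrix (comp t : Matrix (Fin 2) (Fin 2) F)).det = 1 := by
      rw [← RingHom.map_det]; simp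
    have htr : Cfsg.Agent.H390.PslSpec.tr (f.mapMatrix (comp t : Matrix (Fin 2) (Fin 2) F)) = u + u⁻¹ := by
      have h := Cfsg.Agent.H390.PslSpec.tr_comp t
      rw [← ht]
      unfold Cfsg.Agent.H390.PslSpec.tr at h ⊢
      conv_rhs => rw [← h]
      simp
    have h1 := Cfsg.Agent.H390.PslSpec.pow_eq_iff (f.mapMatrix (comp t : Matrix (Fin 2) (Fin 2) F)) hdet u hu0 htr hne
      n 1 (by simp)
    have k1 := Cfsg.Agent.H390.PslSpec.map_pow_eq f (comp t : Matrix (Fin 2) (Fin 2) F) n 1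
    simp only [map_one, one_smul] at h1 k1
    rw [← hord, orderOf_dvd_iff_pow_eq_one, ← h1, k1]
    constructor
    · intro h
      have := congrArg Subtype.val h
      simpa using this
    · intro h
      apply Subtype.ext
      simpa using h
  -- reality
  have hr : IsReal (comp t) := by
    obtain ⟨x, z, h⟩ := exists_sol hodd h2 ht4
    let S : SL2 := ⟨!![x, z + x * t; z, -x], by rw [Matrix.det_fin_two_of]; linear_combination -h⟩
    refine ⟨S, ?_⟩
    rw [mul_inv_eq_iff_eq_mul, eq_inv_mul_iff_mul_eq]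
    apply Subtype.ext
    rw [Matrix.SpecialLinearGroup.coe_mul, Matrix.SpecialLinearGroup.coe_mul]
    change !![0, -1; 1, t] * (!![x, z + x * t; z, -x] * !![0, -1; 1, t]) = !![x, z + x * t; z, -x]
    rw [Matrix.mul_fin_two, Matrix.mul_fin_two]
    congr 1
    ext i j
    fin_cases i <;> fin_cases j <;> simp <;> ring
  exact ⟨embP (comp t), by rw [orderOf_embP, ho], hr.map embP⟩

end

/-- **a real diagonal element** -/
theorem exists_eg [Fintype F] : ∃ (lam : Fˣ) (x : SL3), orderOf lam = Fintype.card F - 1 ∧ IsReal x ∧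
    (x : M3) = Matrix.diagonal ![1, (lam : F), (lam : F)⁻¹] := by
  classical
  obtain ⟨g, hg⟩ := IsCyclic.exists_generator (α := Fˣ)
  have hord : orderOf g = Fintype.card F - 1 := by
    rw [orderOf_eq_card_of_forall_mem_zpowers hg, Nat.card_eq_fintype_card, Fintype.card_units]
  let A : SL2 := ⟨!![(g : F), 0; 0, (g : F)⁻¹], by rw [Matrix.det_fin_two_of]; simp⟩
  let S : SL2 := ⟨!![0, 1; -1, 0], by rw [Matrix.det_fin_two_of]; simp⟩
  refine ⟨g, emb A, hord, IsReal.map (f := emb) ⟨S, ?_⟩, ?_⟩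
  · rw [mul_inv_eq_iff_eq_mul, eq_inv_mul_iff_mul_eq]
    apply Subtype.ext
    rw [Matrix.SpecialLinearGroup.coe_mul, Matrix.SpecialLinearGroup.coe_mul]
    change !![(g : F), 0; 0, (g : F)⁻¹] * (!![0, 1; -1, 0] * !![(g : F), 0; 0, (g : F)⁻¹]) = !![0, 1; -1, 0]
    rw [Matrix.mul_fin_two, Matrix.mul_fin_two]
    congr 1
    ext i j
    fin_cases i <;> fin_cases j <;> simp
  · rw [emb_coe]
    ext i j
    fin_cases i <;> fin_cases j <;> simp [A, Matrix.diagonal]

/-- **a real transvection** -/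
theorem exists_tv : ∃ t : SL3, IsReal t ∧ IsTv (t : M3) := by
  let t : SL3 := ⟨!![1, 0, 0; 0, 1, 1; 0, 0, 1], by rw [Matrix.det_fin_three]; simp⟩
  let s : SL3 := ⟨!![-1, 0, 0; 0, -1, 0; 0, 0, 1], by rw [Matrix.det_fin_three]; simp⟩
  refine ⟨t, ⟨s, ?_⟩, ![0, 0, 1], ![0, 1, 0], ?_, ?_, ?_, ?_⟩
  · rw [mul_inv_eq_iff_eq_mul, eq_inv_mul_iff_mul_eq]
    apply Subtype.ext
    rw [Matrix.SpecialLinearGroup.coe_mul, Matrix.SpecialLinearGroup.coe_mul]
    change (!![1, 0, 0; 0, 1, 1; 0, 0, 1] : M3) * (!![-1, 0, 0; 0, -1, 0; 0, 0, 1] * !![1, 0, 0; 0, 1, 1; 0, 0, 1]) =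
      !![-1, 0, 0; 0, -1, 0; 0, 0, 1]
    ext i j
    fin_cases i <;> fin_cases j <;> simp [Matrix.mul_apply, Fin.sum_univ_three]
  · simp [dotProduct, Fin.sum_univ_three]
  · intro h
    have := congrFun h 2
    simp at this
  · intro h
    have := congrFun h 1
    simp at this
  · change (!![1, 0, 0; 0, 1, 1; 0, 0, 1] : M3) = _
    ext i j
    fin_cases i <;> fin_cases j <;> simp [vecMulVec_apply]

/-- **a real regular unipotent element** -/
theorem exists_ru (h2 : (2 : F) ≠ 0) : ∃ u : SL3, IsReal u ∧ Three.IsRu (u : M3) ∧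
    (u : M3) = !![1, 1, 1 / 2; 0, 1, 1; 0, 0, 1] := by
  let u : SL3 := ⟨!![1, 1, 1 / 2; 0, 1, 1; 0, 0, 1], by rw [Matrix.det_fin_three]; simp⟩
  let s : SL3 := ⟨!![-1, 0, 0; 0, 1, 0; 0, 0, -1], by rw [Matrix.det_fin_three]; simp⟩
  have hN : (u : M3) - 1 = !![0, 1, 1 / 2; 0, 0, 1; 0, 0, 0] := by
    change (!![1, 1, 1 / 2; 0, 1, 1; 0, 0, 1] : M3) - 1 = _
    ext i j
    fin_cases i <;> fin_cases j <;> simp
  have hN2 : ((u : M3) - 1) ^ 2 = !![0, 0, 1; 0, 0, 0; 0, 0, 0] := by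
    rw [hN, pow_two]
    ext i j
    fin_cases i <;> fin_cases j <;> simp [Matrix.mul_apply, Fin.sum_univ_three]
  refine ⟨u, ⟨s, ?_⟩, ⟨?_, ?_⟩, rfl⟩
  · rw [mul_inv_eq_iff_eq_mul, eq_inv_mul_iff_mul_eq]
    apply Subtype.ext
    rw [Matrix.SpecialLinearGroup.coe_mul, Matrix.SpecialLinearGroup.coe_mul]
    change (!![1, 1, 1 / 2; 0, 1, 1; 0, 0, 1] : M3) * (!![-1, 0, 0; 0, 1, 0; 0, 0, -1] *
      !![1, 1, 1 / 2; 0, 1, 1; 0, 0, 1]) = !![-1, 0, 0; 0, 1, 0; 0, 0, -1]
    ext i j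
    fin_cases i <;> fin_cases j <;> simp [Matrix.mul_apply, Fin.sum_univ_three] <;> field_simp <;> ring
  · rw [pow_succ, hN2, hN]
    ext i j
    fin_cases i <;> fin_cases j <;> simp [Matrix.mul_apply, Fin.sum_univ_three]
  · rw [hN2]
    intro h
    have := congrFun (congrFun h 0) 2
    simp at this

end Cfsg.Agent.H746.OddM.ThreeL
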