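import Cfsg.Agent.H746.OddM.ThreeLEl
import Cfsg.Agent.H453.OddM.Asm
import Cfsg.Agent.S0243
import Mathlib.LinearAlgebra.Projectivization.Action
import Mathlib.LinearAlgebra.Projectivization.Cardinality

/-!
# S4785, the groups `PSL_3(q)`, `q` odd: subgroups fixing a point (helper746, TEAM ODDM)
-/

set_option autoImplicit false

namespace Cfsg.Agent.H746.OddM.ThreeL

open Cfsg Cfsg.Geo Matrix Cfsg.Agent.H746.OddM.Three Cfsg.Agent.H453.OddM
open Cfsg.Agent.H304.PslT (pr)
open scoped MatrixGroups LinearAlgebra.Projectivization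

variable {F : Type*} [Field F]

local notation "V3" => Fin 3 → F
local notation "M3" => Matrix (Fin 3) (Fin 3) F
local notation "SL3" => Matrix.SpecialLinearGroup (Fin 3) F
local notation "PSL3" => Matrix.ProjectiveSpecialLinearGroup (Fin 3) F
local notation "Om" => ℙ F (Fin 3 → F)

/-! ### points and vectors -/

theorem mulVec_ne_zero (g : SL3) {v : V3} (hv : v ≠ 0) : (g : M3) *ᵥ v ≠ 0 :=
  (smul_ne_zero_iff_ne g).mpr hv

theorem smul_mk' (g : SL3) {v : V3} (hv : v ≠ 0) :
    g • Projectivization.mk F v hv = Projectivization.mk F ((g : M3) *ᵥ v) (mulVec_ne_zero g hv) := rfl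

/-- fixed points are eigenvectors -/
theorem fixed_iff_eig {g : SL3} {v : V3} (hv : v ≠ 0) :
    g • Projectivization.mk F v hv = Projectivization.mk F v hv ↔ ∃ μ : F, (g : M3) *ᵥ v = μ • v := by
  rw [smul_mk', Projectivization.mk_eq_mk_iff']
  exact ⟨fun ⟨a, ha⟩ => ⟨a, ha.symm⟩, fun ⟨a, ha⟩ => ⟨a, ha.symm⟩⟩

theorem mul_mulVec (g h : SL3) (v : V3) : ((g * h : SL3) : M3) *ᵥ v = (g : M3) *ᵥ ((h : M3) *ᵥ v) := by
  rw [Matrix.SpecialLinearGroup.coe_mul, Matrix.mulVec_mulVec]

theorem mulVec_inv_mulVec (g : SL3) (v : V3) : (g : M3) *ᵥ (((g⁻¹ : SL3) : M3) *ᵥ v) = v := by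
  rw [← mul_mulVec, mul_inv_cancel, Matrix.SpecialLinearGroup.coe_one, Matrix.one_mulVec]

theorem inv_mulVec_mulVec (g : SL3) (v : V3) : ((g⁻¹ : SL3) : M3) *ᵥ ((g : M3) *ᵥ v) = v := by
  rw [← mul_mulVec, inv_mul_cancel, Matrix.SpecialLinearGroup.coe_one, Matrix.one_mulVec]

/-- the fixed point of the regular unipotent element -/
theorem ru_fix {u : SL3} (hu : (u : M3) = !![1, 1, 1 / 2; 0, 1, 1; 0, 0, 1]) {P Q : Om} (hP : u • P = P)
    (hQ : u • Q = Q) : P = Q := by
  have key : ∀ (v : V3) (hv : v ≠ 0), u • Projectivization.mk F v hv = Projectivization.mk F v hv →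
      v 1 = 0 ∧ v 2 = 0 := by
    intro v hv h
    obtain ⟨μ, hμ⟩ := (fixed_iff_eig hv).1 h
    rw [hu] at hμ
    have h0 := congrFun hμ 0
    have h1 := congrFun hμ 1
    have h2 := congrFun hμ 2
    simp [Matrix.mulVec, dotProduct, Fin.sum_univ_three] at h0 h1 h2
    have h2' : v 2 = 0 := by
      have h3 : (μ - 1) * v 2 = 0 := by linear_combination -h2
      rcases mul_eq_zero.1 h3 with h4 | h4
      · have h5 : μ = 1 := sub_eq_zero.1 h4
        rw [h5] at h1
        linear_combination h1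
      · exact h4
    rw [h2'] at h0 h1
    refine ⟨?_, h2'⟩
    have h1' : (1 - μ) * v 1 = 0 := by linear_combination h1
    rcases mul_eq_zero.1 h1' with h3 | h3
    · have h4 : μ = 1 := (sub_eq_zero.1 h3).symm
      rw [h4] at h0
      linear_combination h0
    · exact h3
  induction P with | h v hv => ?_
  induction Q with | h w hw => ?_
  obtain ⟨h1, h2⟩ := key v hv hP
  obtain ⟨h3, h4⟩ := key w hw hQ
  have hw0 : w 0 ≠ 0 := by
    intro h
    apply hw
    ext i
    fin_cases i
    · exact h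
    · exact h3
    · exact h4
  rw [Projectivization.mk_eq_mk_iff']
  refine ⟨v 0 / w 0, ?_⟩
  ext i
  fin_cases i
  · simp [hw0]
  · simp [h1, h3]
  · simp [h2, h4]

/-- an eigenvector of the diagonal element -/
theorem eg_vec {lam : Fˣ} {x : SL3} (hx : (x : M3) = Matrix.diagonal ![1, (lam : F), (lam : F)⁻¹])
    (hl : lam ≠ 1) {v : V3} (hv : v ≠ 0) {μ : F} (hμ : (x : M3) *ᵥ v = μ • v) :
    ∃ (v' : V3) (ν : Fˣ), v' ≠ 0 ∧ (x : M3) *ᵥ v' = (μ * ν) • v' ∧ (ν = lam ∨ ν = lam⁻¹) ∧ μ ≠ 0 := by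
  have hl0 : (lam : F) ≠ 0 := lam.ne_zero
  have hl1 : (lam : F) ≠ 1 := fun h => hl (Units.ext h)
  have hl1' : (lam : F)⁻¹ ≠ 1 := fun h => hl1 (inv_eq_one.1 h)
  have hact : ∀ w : V3, (x : M3) *ᵥ w = ![w 0, lam * w 1, (lam : F)⁻¹ * w 2] := by
    intro w
    rw [hx]
    ext i
    fin_cases i <;> simp [Matrix.mulVec_diagonal]
  rw [hact] at hμ
  have h0 := congrFun hμ 0
  have h1 := congrFun hμ 1
  have h2 := congrFun hμ 2
  simp only [Matrix.cons_val_zero, Matrix.cons_val_one, Matrix.cons_val, Pi.smul_apply, smul_eq_mul] at h0 h1 h2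
  by_cases hv0 : v 0 = 0
  · have hμ' : μ = lam ∨ μ = (lam : F)⁻¹ := by
      by_cases hv1 : v 1 = 0
      · have hv2 : v 2 ≠ 0 := by
          intro hv2
          apply hv
          ext i
          fin_cases i
          · exact hv0
          · exact hv1
          · exact hv2
        exact Or.inr (mul_right_cancel₀ hv2 h2).symm
      · exact Or.inl (mul_right_cancel₀ hv1 h1).symm
    have he0 : (![1, 0, 0] : V3) ≠ 0 := by
      intro h
      have := congrFun h 0
      simp at this
    have hxe : (x : M3) *ᵥ (![1, 0, 0] : V3) = ![1, 0, 0] := by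
      rw [hact]
      simp
    rcases hμ' with h | h
    · refine ⟨![1, 0, 0], lam⁻¹, he0, ?_, Or.inr rfl, by rw [h]; exact hl0⟩
      rw [hxe, h]
      simp
    · refine ⟨![1, 0, 0], lam, he0, ?_, Or.inl rfl, by rw [h]; exact inv_ne_zero hl0⟩
      rw [hxe, h]
      simp
  · have hμ1 : μ = 1 := by
      have : (μ - 1) * v 0 = 0 := by linear_combination -h0
      exact sub_eq_zero.1 ((mul_eq_zero.1 this).resolve_right hv0)
    refine ⟨![0, 1, 0], lam, ?_, ?_, Or.inl rfl, by rw [hμ1]; exact one_ne_zero⟩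
    · intro h
      have := congrFun h 1
      simp at this
    · rw [hact, hμ1]
      simp

/-! ### counting -/

theorem orb_card {G X : Type*} [Group G] [MulAction G X] (A : Subgroup G) (Q : X) :
    (MulAction.orbit A Q).ncard * Nat.card (A ⊓ MulAction.stabilizer G Q : Subgroup G) = Nat.card A := by
  rw [← MulAction.index_stabilizer, ← Subgroup.index_mul_card (MulAction.stabilizer A Q)]
  congr 1
  exact Nat.card_congr (Equiv.subtypeSubtypeEquivSubtypeInter (fun g => g ∈ A) (fun g => g • Q = Q)).symm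

/-- the arithmetic -/
theorem arith {q p k k2 l s s2 sl j m l' A B : ℕ} (hp : p.Prime) (hpq : p ∣ q) (hq : 2 ≤ q) (hk2 : 0 < k2)
    (hs2 : 0 < s2) (h1 : (q ^ 2 + q) * k2 = k) (h2 : q * k2 = l) (h3 : k = s * j) (h4 : l = sl * l')
    (h5 : s = sl * m) (h6 : A * s2 = s) (h7 : B * s2 = sl) (hB : q - 1 ≤ B) (hA : A ≤ q ^ 2 + q) (hpA : p ∣ A)
    (hj : Nat.Coprime j (q + 1)) : A = q ^ 2 + q := by
  have hk : k = (q + 1) * l := by rw [← h1, ← h2]; ring
  have hk0 : 0 < k := by rw [← h1]; positivity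
  have hsl : 0 < sl := by
    rcases Nat.eq_zero_or_pos sl with h | h
    · rw [h, zero_mul] at h5
      rw [h3, h5, zero_mul] at hk0
      omega
    · exact h
  have hm : m * j = (q + 1) * l' := by
    have : sl * (m * j) = sl * ((q + 1) * l') := by
      rw [← mul_assoc, ← h5, ← h3, hk, h4]; ring
    exact Nat.eq_of_mul_eq_mul_left hsl this
  have hqm : (q + 1) ∣ m := hj.symm.dvd_of_dvd_mul_right (Dvd.intro _ hm.symm)
  obtain ⟨m', rfl⟩ := hqm
  have hAB : A = (B * m') * (q + 1) := by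
    have : A * s2 = ((B * m') * (q + 1)) * s2 := by
      rw [h6, h5, ← h7]; ring
    exact Nat.eq_of_mul_eq_mul_right hs2 this
  have hA0 : 0 < A := by
    rcases Nat.eq_zero_or_pos A with h | h
    · rw [h, zero_mul] at h6
      rw [h3, ← h6, zero_mul] at hk0
      omega
    · exact h
  have hm' : 1 ≤ m' := by
    rcases Nat.eq_zero_or_pos m' with h | h
    · rw [h, mul_zero, zero_mul] at hAB
      omega
    · exact h
  have h8 : q - 1 ≤ B * m' := hB.trans (Nat.le_mul_of_pos_right _ hm')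
  have h9 : B * m' ≤ q := by
    have : (B * m') * (q + 1) ≤ q * (q + 1) := by
      rw [← hAB]; calc A ≤ q ^ 2 + q := hA
        _ = q * (q + 1) := by ring
    exact Nat.le_of_mul_le_mul_right this (by omega)
  have h10 : p ∣ B * m' := by
    rw [hAB] at hpA
    refine (hp.dvd_mul.1 hpA).resolve_right fun h => ?_
    have := (Nat.dvd_add_right hpq).1 h
    exact hp.one_lt.ne' (Nat.dvd_one.1 this)
  have h11 : B * m' = q := by
    rcases Nat.lt_or_ge (B * m') q with h | h
    · exfalso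
      have h12 : B * m' = q - 1 := by omega
      rw [h12] at h10
      have h13 := Nat.dvd_sub hpq h10
      rw [Nat.sub_sub_self (by omega)] at h13
      exact hp.one_lt.ne' (Nat.dvd_one.1 h13)
    · omega
  rw [hAB, h11]; ring

variable [Fintype F]

theorem card_om : Nat.card Om = Fintype.card F ^ 2 + Fintype.card F + 1 := by
  rw [Projectivization.card_of_finrank F V3 (n := 3) (by simp), Nat.card_eq_fintype_card]
  simp [Finset.sum_range_succ]
  ring

/-- the stabilizer of a plane -/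
def LU (U : Submodule F V3) : Subgroup SL3 := (subspaceStabilizer U).comap Matrix.SpecialLinearGroup.toGL

theorem mem_LU {U : Submodule F V3} {g : SL3} (h : ∀ x ∈ U, (g : M3) *ᵥ x ∈ U) : g ∈ LU U := by
  classical
  have h1 : ∀ n : ℕ, ∀ x ∈ U, ((g ^ n : SL3) : M3) *ᵥ x ∈ U := by
    intro n
    induction n with
    | zero => intro x hx; simpa using hx
    | succ n ih =>
      intro x hx
      rw [pow_succ, mul_mulVec]
      exact ih _ (h x hx)
  intro x
  refine ⟨h x, fun hx => ?_⟩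
  have h2 := h1 (orderOf g - 1) _ hx
  have h3 : ((g ^ (orderOf g - 1) : SL3) : M3) *ᵥ ((g : M3) *ᵥ x) = x := by
    rw [← mul_mulVec, ← pow_succ, Nat.sub_add_cancel (orderOf_pos g), pow_orderOf_eq_one,
      Matrix.SpecialLinearGroup.coe_one, Matrix.one_mulVec]
  change ((g ^ (orderOf g - 1) : SL3) : M3) *ᵥ ((g : M3) *ᵥ x) ∈ U at h2
  rwa [h3] at h2

omit [Fintype F] in
theorem LU_mem {U : Submodule F V3} {g : SL3} (h : g ∈ LU U) {x : V3} (hx : x ∈ U) : (g : M3) *ᵥ x ∈ U :=
  (h x).1 hx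

omit [Fintype F] in
/-- the orbit of the stabilizer of a point -/
theorem orbit_stab {P Q : Om} (h : Q ≠ P) : MulAction.orbit (MulAction.stabilizer SL3 P) Q = {P}ᶜ := by
  ext Q'
  rw [MulAction.mem_orbit_iff, Set.mem_compl_iff, Set.mem_singleton_iff]
  constructor
  · rintro ⟨⟨g, hg⟩, rfl⟩ h1
    apply h
    have h2 : g • Q = P := h1
    have h3 : g • P = P := hg
    exact smul_left_cancel g (h2.trans h3.symm)
  · intro h1
    obtain ⟨g, hg1, hg2⟩ := MulAction.is_two_pretransitive_iff.1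
      (inferInstance : MulAction.IsMultiplyPretransitive SL3 Om 2) (Ne.symm h) (Ne.symm h1)
    exact ⟨⟨g, hg1⟩, hg2⟩

theorem ncard_compl (P : Om) : ({P}ᶜ : Set Om).ncard = Fintype.card F ^ 2 + Fintype.card F := by
  have : Finite Om := Projectivization.finite_of_finite F V3
  rw [Set.ncard_compl, Set.ncard_singleton, card_om, Nat.add_sub_cancel]

section line

variable {v w : Fin 3 → F}

omit [Fintype F] in
theorem add_ne_zero' (hvw : LinearIndependent F ![v, w]) (c : F) : w + c • v ≠ 0 := by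
  intro h
  have := (LinearIndependent.pair_iff.1 hvw) c 1 (by rw [one_smul, add_comm]; exact h)
  exact one_ne_zero this.2

/-- the points of the line `⟨v, w⟩` other than `v` -/
def lp (hvw : LinearIndependent F ![v, w]) (c : F) : Om := Projectivization.mk F (w + c • v) (add_ne_zero' hvw c)

omit [Fintype F] in
theorem lp_injective (hvw : LinearIndependent F ![v, w]) : Function.Injective (lp hvw) := by
  intro c d h
  rw [lp, lp, Projectivization.mk_eq_mk_iff'] at h
  obtain ⟨a, ha⟩ := h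
  have h1 := (LinearIndependent.pair_iff.1 hvw) (a * d - c) (a - 1) (by
    have h2 : a • (w + d • v) - (w + c • v) = 0 := by rw [ha, sub_self]
    rw [← h2, smul_add, smul_smul, sub_smul, sub_smul, one_smul]
    abel)
  have h3 : a = 1 := sub_eq_zero.1 h1.2
  have h4 := h1.1
  rw [h3, one_mul] at h4
  exact (sub_eq_zero.1 h4).symm

omit [Fintype F] in
theorem ne_zero_left (hvw : LinearIndependent F ![v, w]) : v ≠ 0 := hvw.ne_zero 0

omit [Fintype F] in
theorem ne_zero_right (hvw : LinearIndependent F ![v, w]) : w ≠ 0 := hvw.ne_zero 1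

omit [Fintype F] in
theorem lp_zero (hvw : LinearIndependent F ![v, w]) : lp hvw 0 = Projectivization.mk F w (ne_zero_right hvw) := by
  rw [lp]
  congr 1
  rw [zero_smul, add_zero]

omit [Fintype F] in
theorem lp_ne (hvw : LinearIndependent F ![v, w]) (c : F) : lp hvw c ≠ Projectivization.mk F v (ne_zero_left hvw) := by
  rw [lp, Ne, Projectivization.mk_eq_mk_iff']
  rintro ⟨a, ha⟩
  have h1 := (LinearIndependent.pair_iff.1 hvw) (c - a) 1 (by
    rw [sub_smul, one_smul, ha]; abel)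
  exact one_ne_zero h1.2

/-- the orbit of the stabilizer of the flag -/
theorem orbit_flag (hvw : LinearIndependent F ![v, w]) : MulAction.orbit (MulAction.stabilizer SL3 (Projectivization.mk F v (ne_zero_left hvw)) ⊓
    LU (Submodule.span F {v, w}) : Subgroup SL3) (lp hvw 0) = Set.range (lp hvw) := by
  have hvU : v ∈ Submodule.span F {v, w} := Submodule.subset_span (by simp)
  have hwU : w ∈ Submodule.span F {v, w} := Submodule.subset_span (by simp)
  have hlp0 := lp_zero hvw
  ext Q'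
  rw [MulAction.mem_orbit_iff]
  constructor
  · rintro ⟨⟨g, hg1, hg2⟩, rfl⟩
    have h1 : (g : M3) *ᵥ w ∈ Submodule.span F {v, w} := LU_mem hg2 hwU
    obtain ⟨a, b, hab⟩ := Submodule.mem_span_pair.1 h1
    obtain ⟨μ, hμ⟩ := (fixed_iff_eig _).1 hg1
    have hb : b ≠ 0 := by
      rintro rfl
      rw [zero_smul, add_zero] at hab
      have hμ0 : μ ≠ 0 := by
        rintro rfl
        rw [zero_smul] at hμ
        exact mulVec_ne_zero g (ne_zero_left hvw) hμ
      have h3 : (g : M3) *ᵥ w = (g : M3) *ᵥ ((a / μ) • v) := by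
        rw [Matrix.mulVec_smul, hμ, smul_smul, div_mul_cancel₀ _ hμ0, hab]
      have h4 : w = (a / μ) • v := by
        rw [← inv_mulVec_mulVec g w, h3, inv_mulVec_mulVec]
      have h5 := (LinearIndependent.pair_iff.1 hvw) (-(a / μ)) 1 (by
        rw [one_smul, neg_smul, ← h4]; simp)
      exact one_ne_zero h5.2
    refine ⟨a / b, ?_⟩
    change _ = g • lp hvw 0
    rw [hlp0, smul_mk', lp, Projectivization.mk_eq_mk_iff']
    refine ⟨b⁻¹, ?_⟩
    rw [← hab, smul_add, smul_smul, smul_smul, inv_mul_cancel₀ hb, one_smul, div_eq_inv_mul, add_comm]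
  · rintro ⟨c, rfl⟩
    obtain ⟨g, hg1, hg2⟩ := MulAction.is_two_pretransitive_iff.1
      (inferInstance : MulAction.IsMultiplyPretransitive SL3 Om 2) (Ne.symm (lp_ne hvw 0)) (Ne.symm (lp_ne hvw c))
    refine ⟨⟨g, hg1, mem_LU ?_⟩, hg2⟩
    obtain ⟨μ, hμ⟩ := (fixed_iff_eig _).1 hg1
    rw [hlp0, smul_mk', lp, Projectivization.mk_eq_mk_iff'] at hg2
    obtain ⟨a, ha⟩ := hg2
    intro x hx
    obtain ⟨b, d, rfl⟩ := Submodule.mem_span_pair.1 hx
    rw [Matrix.mulVec_add, Matrix.mulVec_smul, Matrix.mulVec_smul, hμ, ← ha]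
    refine Submodule.add_mem _ (Submodule.smul_mem _ _ (Submodule.smul_mem _ _ hvU))
      (Submodule.smul_mem _ _ (Submodule.smul_mem _ _ (Submodule.add_mem _ hwU (Submodule.smul_mem _ _ hvU))))

theorem stab_pair (hvw : LinearIndependent F ![v, w]) : MulAction.stabilizer SL3 (Projectivization.mk F v (ne_zero_left hvw)) ⊓
    MulAction.stabilizer SL3 (lp hvw 0) ≤ LU (Submodule.span F {v, w}) := by
  have hvU : v ∈ Submodule.span F {v, w} := Submodule.subset_span (by simp)
  have hwU : w ∈ Submodule.span F {v, w} := Submodule.subset_span (by simp)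
  have hlp0 := lp_zero hvw
  rintro g ⟨hg1, hg2⟩
  rw [hlp0] at hg2
  obtain ⟨μ, hμ⟩ := (fixed_iff_eig _).1 hg1
  obtain ⟨ν, hν⟩ := (fixed_iff_eig _).1 hg2
  apply mem_LU
  intro x hx
  obtain ⟨b, d, rfl⟩ := Submodule.mem_span_pair.1 hx
  rw [Matrix.mulVec_add, Matrix.mulVec_smul, Matrix.mulVec_smul, hμ, hν]
  exact Submodule.add_mem _ (Submodule.smul_mem _ _ (Submodule.smul_mem _ _ hvU))
      (Submodule.smul_mem _ _ (Submodule.smul_mem _ _ hwU))

end line

theorem ncard_range_lp {v w : Fin 3 → F} (hvw : LinearIndependent F ![v, w]) :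
    (Set.range (lp hvw)).ncard = Fintype.card F := by
  rw [← Nat.card_coe_set_eq, Nat.card_range_of_injective (lp_injective hvw), Nat.card_eq_fintype_card]

/-- many points in the orbit of a torus element -/
theorem torus_orbit {v w' : Fin 3 → F} (hvw' : LinearIndependent F ![v, w']) (hw : v + w' ≠ 0) {x : SL3} {μ : F}
    {ν : Fˣ} (hμ0 : μ ≠ 0) (hxv : (x : M3) *ᵥ v = μ • v) (hxw : (x : M3) *ᵥ w' = (μ * ν) • w')
    (hν : orderOf ν = Fintype.card F - 1) {A : Subgroup SL3} (hxA : x ∈ A) :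
    Fintype.card F - 1 ≤ (MulAction.orbit A (Projectivization.mk F (v + w') hw)).ncard := by
  have : Finite Om := Projectivization.finite_of_finite F V3
  have h1 : ∀ k : ℕ, ((x ^ k : SL3) : M3) *ᵥ v = (μ ^ k) • v := by
    intro k
    induction k with
    | zero => simp
    | succ k ih => rw [pow_succ, mul_mulVec, hxv, Matrix.mulVec_smul, ih, smul_smul]; congr 1; ring
  have h2 : ∀ k : ℕ, ((x ^ k : SL3) : M3) *ᵥ w' = ((μ * ν) ^ k) • w' := by
    intro k
    induction k with
    | zero => simp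
    | succ k ih => rw [pow_succ, mul_mulVec, hxw, Matrix.mulVec_smul, ih, smul_smul]; congr 1; ring
  let f : Fin (Fintype.card F - 1) → Om := fun k => (x ^ (k : ℕ)) • Projectivization.mk F (v + w') hw
  have hf : Function.Injective f := by
    intro k l h
    change (x ^ (k : ℕ)) • Projectivization.mk F (v + w') hw = (x ^ (l : ℕ)) • Projectivization.mk F (v + w') hw at h
    rw [smul_mk', smul_mk', Projectivization.mk_eq_mk_iff'] at h
    obtain ⟨a, ha⟩ := h
    rw [Matrix.mulVec_add, Matrix.mulVec_add, h1, h1, h2, h2] at ha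
    have h3 := (LinearIndependent.pair_iff.1 hvw') (a * μ ^ (l : ℕ) - μ ^ (k : ℕ))
      (a * (μ * ν) ^ (l : ℕ) - (μ * ν) ^ (k : ℕ)) (by
        have h4 : a • (μ ^ (l : ℕ) • v + (μ * ν) ^ (l : ℕ) • w') - (μ ^ (k : ℕ) • v + (μ * ν) ^ (k : ℕ) • w') = 0 := by
          rw [ha, sub_self]
        rw [← h4, smul_add, smul_smul, smul_smul, sub_smul, sub_smul]
        abel)
    have h5 := sub_eq_zero.1 h3.1
    have h6 := sub_eq_zero.1 h3.2
    rw [mul_pow, mul_pow, ← mul_assoc, h5] at h6
    have h7 := mul_left_cancel₀ (pow_ne_zero _ hμ0) h6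
    have h8 : ν ^ (l : ℕ) = ν ^ (k : ℕ) := Units.ext (by push_cast; exact h7)
    have h9 := pow_injOn_Iio_orderOf (x := ν) (by rw [hν]; exact l.2) (by rw [hν]; exact k.2) h8
    exact Fin.ext h9.symm
  have h3 : (Set.range f).ncard = Fintype.card F - 1 := by
    rw [← Nat.card_coe_set_eq, Nat.card_range_of_injective hf, Nat.card_eq_fintype_card, Fintype.card_fin]
  rw [← h3]
  refine Set.ncard_le_ncard ?_ (Set.toFinite _)
  rintro _ ⟨k, rfl⟩
  exact ⟨⟨x ^ (k : ℕ), A.pow_mem hxA _⟩, rfl⟩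

/-- `p` divides the lengths of the orbits -/
theorem dvd_orbit {p : ℕ} [hp : Fact p.Prime] {S : Subgroup SL3} {P Q : Om}
    (hSP : S ≤ MulAction.stabilizer SL3 P) {u : SL3} (hu : u ∈ S) (hup : u ^ p = 1)
    (hufix : ∀ P Q : Om, u • P = P → u • Q = Q → P = Q) (hQ : Q ≠ P) : p ∣ (MulAction.orbit S Q).ncard := by
  have : Finite Om := Projectivization.finite_of_finite F V3
  let u' : S := ⟨u, hu⟩
  have hpg : IsPGroup p (Subgroup.zpowers u') := by
    rintro ⟨g, hg⟩
    obtain ⟨k, rfl⟩ := Subgroup.mem_zpowers_iff.1 hg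
    refine ⟨1, ?_⟩
    apply Subtype.ext
    change (u' ^ k) ^ (p ^ 1) = 1
    have h1 : u' ^ p = 1 := Subtype.ext hup
    rw [pow_one, ← zpow_natCast, ← _root_.zpow_mul, mul_comm, _root_.zpow_mul, zpow_natCast, h1, _root_.one_zpow]
  have h1 := hpg.card_modEq_card_fixedPoints (MulAction.orbit S Q)
  have h2 : IsEmpty (MulAction.fixedPoints (Subgroup.zpowers u') (MulAction.orbit S Q)) := by
    constructor
    rintro ⟨⟨Q', s, hs⟩, h⟩
    have h3 : u • Q' = Q' := congrArg Subtype.val (h ⟨u', Subgroup.mem_zpowers u'⟩)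
    have h4 : u • P = P := hSP hu
    have h5 : P = Q' := hufix P Q' h4 h3
    apply hQ
    have h6 : (s : SL3) • Q = Q' := hs
    have h7 : (s : SL3) • P = P := hSP s.2
    rw [← h5] at h6
    exact smul_left_cancel _ (h6.trans h7.symm)
  have h3 : Nat.card (MulAction.fixedPoints (Subgroup.zpowers u') (MulAction.orbit S Q)) = 0 := Nat.card_of_isEmpty
  rw [h3, Nat.modEq_zero_iff_dvd] at h1
  rwa [← Nat.card_coe_set_eq]

/-- **transitivity** -/
theorem trans_point {p : ℕ} [hp : Fact p.Prime] (hpq : p ∣ Fintype.card F)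
    {S : Subgroup SL3} {v w' : Fin 3 → F} (hvw' : LinearIndependent F ![v, w'])
    (hSP : S ≤ MulAction.stabilizer SL3 (Projectivization.mk F v (ne_zero_left hvw')))
    (hS : Nat.Coprime S.index (Fintype.card F + 1))
    {u : SL3} (hu : u ∈ S) (hup : u ^ p = 1) (hufix : ∀ P Q : Om, u • P = P → u • Q = Q → P = Q)
    {x : SL3} (hx : x ∈ S) {μ : F}
    {ν : Fˣ} (hμ0 : μ ≠ 0) (hxv : (x : M3) *ᵥ v = μ • v) (hxw : (x : M3) *ᵥ w' = (μ * ν) • w')
    (hν : orderOf ν = Fintype.card F - 1) :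
    ∃ Q : Om, MulAction.orbit S Q = {Projectivization.mk F v (ne_zero_left hvw')}ᶜ := by
  classical
  have : Finite Om := Projectivization.finite_of_finite F V3
  set P : Om := Projectivization.mk F v (ne_zero_left hvw') with hP
  have hvw : LinearIndependent F ![v, v + w'] := by
    rw [LinearIndependent.pair_iff]
    intro a b h
    have h1 := (LinearIndependent.pair_iff.1 hvw') (a + b) b (by rw [← h, smul_add, add_smul, add_assoc])
    exact ⟨by have := h1.1; rw [h1.2, add_zero] at this; exact this, h1.2⟩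
  have hQd := lp_zero hvw
  set Q : Om := lp hvw 0 with hQ
  have hQP : Q ≠ P := lp_ne hvw 0
  refine ⟨Q, ?_⟩
  set K := MulAction.stabilizer SL3 P with hK
  set L := K ⊓ LU (Submodule.span F {v, v + w'}) with hL
  set GQ := MulAction.stabilizer SL3 Q with hGQ
  have hxL : x ∈ S ⊓ L := by
    refine ⟨hx, hSP hx, mem_LU ?_⟩
    intro y hy
    obtain ⟨a, b, rfl⟩ := Submodule.mem_span_pair.1 hy
    rw [Submodule.mem_span_pair]
    refine ⟨a * μ + b * μ - b * (μ * ν), b * (μ * ν), ?_⟩
    rw [Matrix.mulVec_add, Matrix.mulVec_smul, Matrix.mulVec_smul, Matrix.mulVec_add, hxv, hxw]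
    module
  have e1 := orb_card K Q
  rw [orbit_stab hQP, ncard_compl] at e1
  have e2 := orb_card L Q
  rw [orbit_flag hvw, ncard_range_lp] at e2
  have e3 : L ⊓ GQ = K ⊓ GQ := by
    apply le_antisymm
    · exact inf_le_inf_right _ inf_le_left
    · exact le_inf (le_inf inf_le_left (stab_pair hvw)) inf_le_right
  rw [← hGQ, e3] at e2
  have e4 := orb_card S Q
  have e5 := orb_card (S ⊓ L) Q
  have e6 : S ⊓ L ⊓ GQ = S ⊓ GQ := by
    apply le_antisymm
    · exact inf_le_inf_right _ inf_le_left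
    · refine le_inf (le_inf inf_le_left ?_) inf_le_right
      exact le_trans (inf_le_inf_right _ hSP) (le_inf inf_le_left (stab_pair hvw))
  rw [← hGQ, e6] at e5
  obtain ⟨j, hj⟩ := Subgroup.card_dvd_of_le hSP
  obtain ⟨m, hm⟩ := Subgroup.card_dvd_of_le (inf_le_left : S ⊓ L ≤ S)
  obtain ⟨l', hl'⟩ := Subgroup.card_dvd_of_le (inf_le_right : S ⊓ L ≤ L)
  have hB : Fintype.card F - 1 ≤ (MulAction.orbit (S ⊓ L : Subgroup SL3) Q).ncard := by
    rw [hQd]
    exact torus_orbit hvw' (ne_zero_right hvw) hμ0 hxv hxw hν hxL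
  have hsub : MulAction.orbit S Q ⊆ {P}ᶜ := by
    rintro _ ⟨s, rfl⟩ h
    apply hQP
    have h1 : (s : SL3) • Q = P := h
    have h2 : (s : SL3) • P = P := hSP s.2
    exact smul_left_cancel _ (h1.trans h2.symm)
  have hA : (MulAction.orbit S Q).ncard ≤ Fintype.card F ^ 2 + Fintype.card F := by
    rw [← ncard_compl P]
    exact Set.ncard_le_ncard hsub (Set.toFinite _)
  have hcop : Nat.Coprime j (Fintype.card F + 1) := by
    refine Nat.Coprime.coprime_dvd_left ?_ hS
    have h1 := S.card_mul_index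
    have h2 := K.card_mul_index
    rw [← h2, hj, mul_assoc] at h1
    exact ⟨K.index, Nat.eq_of_mul_eq_mul_left Nat.card_pos h1⟩
  have key := arith hp.out hpq Fintype.one_lt_card Nat.card_pos Nat.card_pos e1 e2 hj hl' hm e4 e5 hB hA
    (dvd_orbit hSP hu hup hufix hQP) hcop
  apply Set.eq_of_subset_of_ncard_le hsub
  · rw [ncard_compl, key]

end Cfsg.Agent.H746.OddM.ThreeL
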